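import Cfsg.Agent.SL2.Elements
import Cfsg.Agent.SL2Pres.Recognise
import Cfsg.Agent.SpGeom.Basic

/-!
The two fundamental copies of `SL₂(F)` inside `Sp₄(F)`: relations and generation.
-/

set_option autoImplicit false
set_option maxHeartbeats 1000000

namespace CfsgLib.SpFourPres

open Matrix CfsgLib.SL2 CfsgLib.SL2Pres.Short CfsgLib.SpGeom

variable {F : Type*} [Field F]

local notation "Sp" => Matrix.symplecticGroup (Fin 2) F
local notation "SL" => Matrix.SpecialLinearGroup (Fin 2) F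

/-- the matrix of the short root copy -/
def matA (M : SL) : Matrix (Fin 2 ⊕ Fin 2) (Fin 2 ⊕ Fin 2) F :=
  Matrix.fromBlocks !![M.1 0 0, M.1 0 1; M.1 1 0, M.1 1 1] 0 0 !![M.1 1 1, -M.1 1 0; -M.1 0 1, M.1 0 0]

/-- the matrix of the long root copy -/
def matB (M : SL) : Matrix (Fin 2 ⊕ Fin 2) (Fin 2 ⊕ Fin 2) F :=
  Matrix.fromBlocks !![1, 0; 0, M.1 0 0] !![0, 0; 0, M.1 0 1] !![0, 0; 0, M.1 1 0] !![1, 0; 0, M.1 1 1]

theorem matA_mem (M : SL) : matA M ∈ Matrix.symplecticGroup (Fin 2) F := by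
  have h := det_eq M
  rw [SymplecticGroup.mem_iff]
  ext (i | i) (j | j) <;> fin_cases i <;> fin_cases j <;>
    simp [matA, Matrix.J, Matrix.fromBlocks_multiply, Matrix.fromBlocks_transpose, Matrix.mul_apply,
      Fin.sum_univ_two] <;> first | linear_combination h | linear_combination -h | ring

theorem matB_mem (M : SL) : matB M ∈ Matrix.symplecticGroup (Fin 2) F := by
  have h := det_eq M
  rw [SymplecticGroup.mem_iff]
  ext (i | i) (j | j) <;> fin_cases i <;> fin_cases j <;>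
    simp [matB, Matrix.J, Matrix.fromBlocks_multiply, Matrix.fromBlocks_transpose, Matrix.mul_apply,
      Fin.sum_univ_two] <;> first | linear_combination h | linear_combination -h | ring

/-- the short root copy -/
def embA : SL →* Sp where
  toFun M := ⟨matA M, matA_mem M⟩
  map_one' := Subtype.ext <| by
    ext (i | i) (j | j) <;> fin_cases i <;> fin_cases j <;> simp [matA]
  map_mul' M N := Subtype.ext <| by
    show matA (M * N) = matA M * matA N
    ext (i | i) (j | j) <;> fin_cases i <;> fin_cases j <;>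
      simp [matA, Matrix.fromBlocks_multiply, Matrix.mul_apply, Fin.sum_univ_two] <;> ring

/-- the long root copy -/
def embB : SL →* Sp where
  toFun M := ⟨matB M, matB_mem M⟩
  map_one' := Subtype.ext <| by
    ext (i | i) (j | j) <;> fin_cases i <;> fin_cases j <;> simp [matB]
  map_mul' M N := Subtype.ext <| by
    show matB (M * N) = matB M * matB N
    ext (i | i) (j | j) <;> fin_cases i <;> fin_cases j <;>
      simp [matB, Matrix.fromBlocks_multiply, Matrix.mul_apply, Fin.sum_univ_two]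

@[simp] theorem embA_coe (M : SL) : (embA M : Matrix (Fin 2 ⊕ Fin 2) (Fin 2 ⊕ Fin 2) F) = matA M := rfl
@[simp] theorem embB_coe (M : SL) : (embB M : Matrix (Fin 2 ⊕ Fin 2) (Fin 2 ⊕ Fin 2) F) = matB M := rfl

/-- the twelve relations -/
theorem rels (ω : Fˣ) :
    Commute (embA (diagT ω)) (embB (diagT ω)) ∧
    embA (diagT ω) * embB (upperU 1) * (embA (diagT ω))⁻¹ = embB (upperU ((ω : F) ^ 2)⁻¹) ∧
    embB (diagT ω) * embA (upperU 1) * (embB (diagT ω))⁻¹ = embA (upperU (ω : F)⁻¹) ∧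
    embA (wOne F) * embB (diagT ω) * (embA (wOne F))⁻¹ = embA (diagT ω) * embB (diagT ω) ∧
    embB (wOne F) * embA (diagT ω) * (embB (wOne F))⁻¹ = embA (diagT ω) * (embB (diagT ω) * embB (diagT ω)) ∧
    embA (wOne F) * embB (wOne F) * embA (wOne F) * embB (wOne F) =
      embB (wOne F) * embA (wOne F) * embB (wOne F) * embA (wOne F) ∧
    embA (wOne F) * (embB (wOne F) * embA (upperU 1) * (embB (wOne F))⁻¹) * (embA (wOne F))⁻¹ =
      embB (wOne F) * embA (upperU (-1)) * (embB (wOne F))⁻¹ ∧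
    embB (wOne F) * (embA (wOne F) * embB (upperU 1) * (embA (wOne F))⁻¹) * (embB (wOne F))⁻¹ =
      embA (wOne F) * embB (upperU 1) * (embA (wOne F))⁻¹ ∧
    embA (upperU 1) * embB (upperU 1) * (embA (upperU (1 : F)))⁻¹ * (embB (upperU 1))⁻¹ =
      embB (wOne F) * embA (upperU (-1)) * (embB (wOne F))⁻¹ *
        (embA (wOne F) * embB (upperU 1) * (embA (wOne F))⁻¹) ∧
    embA (upperU 1) * (embB (wOne F) * embA (upperU 1) * (embB (wOne F))⁻¹) * (embA (upperU (1 : F)))⁻¹ *
      (embB (wOne F) * embA (upperU 1) * (embB (wOne F))⁻¹)⁻¹ =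
      embA (wOne F) * embB (upperU (-2)) * (embA (wOne F))⁻¹ ∧
    Commute (embA (upperU 1)) (embA (wOne F) * embB (upperU 1) * (embA (wOne F))⁻¹) ∧
    Commute (embB (upperU 1)) (embA (wOne F) * embB (upperU (1 : F)) * (embA (wOne F))⁻¹) := by
  have hω : (ω : F) ≠ 0 := ω.ne_zero
  simp only [Commute, SemiconjBy, _root_.mul_inv_rev, inv_inv, ← map_inv]
  refine ⟨?_, ?_, ?_, ?_, ?_, ?_, ?_, ?_, ?_, ?_, ?_, ?_⟩
  all_goals
    apply Subtype.ext
    simp only [Submonoid.coe_mul, embA_coe, embB_coe]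
    simp [matA, matB, Matrix.fromBlocks_multiply, Matrix.mul_fin_two, wOne, inv00, inv01, inv10, inv11, hω]
    all_goals (try simp [funext_iff, Fin.forall_fin_two, hω])
    all_goals (repeat' apply And.intro)
    all_goals (try field_simp)
    all_goals (try ring)
    all_goals (ext i j; fin_cases i <;> fin_cases j <;> simp)

theorem exists_move (a c : F) (h : a ≠ 0 ∨ c ≠ 0) :
    ∃ M : SL, M.1 0 0 * a + M.1 0 1 * c = 1 ∧ M.1 1 0 * a + M.1 1 1 * c = 0 := by
  by_cases ha : a = 0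
  · have hc : c ≠ 0 := h.resolve_left fun h' => h' ha
    exact ⟨mk2 0 c⁻¹ (-c) a (by field_simp; ring), by simp [hc], by simp [ha]⟩
  · exact ⟨mk2 a⁻¹ 0 (-c) a (by field_simp; ring), by simp [ha], by simp; ring⟩

/-- the vector with the given coordinates -/
def vec (a b c d : F) : Fin 2 ⊕ Fin 2 → F := Sum.elim ![a, b] ![c, d]

theorem embA_vec (M : SL) (a b c d : F) : matA M *ᵥ vec a b c d =
    vec (M.1 0 0 * a + M.1 0 1 * b) (M.1 1 0 * a + M.1 1 1 * b)
      (M.1 1 1 * c - M.1 1 0 * d) (-M.1 0 1 * c + M.1 0 0 * d) := by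
  ext (i | i) <;> fin_cases i <;>
    simp [matA, vec, Matrix.mulVec, dotProduct, Fintype.sum_sum_type, Fin.sum_univ_two] <;> ring

theorem embB_vec (M : SL) (a b c d : F) : matB M *ᵥ vec a b c d =
    vec a (M.1 0 0 * b + M.1 0 1 * d) c (M.1 1 0 * b + M.1 1 1 * d) := by
  ext (i | i) <;> fin_cases i <;>
    simp [matB, vec, Matrix.mulVec, dotProduct, Fintype.sum_sum_type, Fin.sum_univ_two]

/-- The two copies generate `Sp₄(F)`. -/
theorem range_sup : (embA (F := F)).range ⊔ embB.range = ⊤ := by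
  set H : Subgroup Sp := (embA (F := F)).range ⊔ embB.range
  have hA : ∀ M, embA M ∈ H := fun M => Subgroup.mem_sup_left ⟨M, rfl⟩
  have hB : ∀ M, embB M ∈ H := fun M => Subgroup.mem_sup_right ⟨M, rfl⟩
  refine eq_top_of_tv H fun w c => ?_
  set O : Set (Fin 2 ⊕ Fin 2 → F) :=
    {v | ∃ g ∈ H, (g : Matrix (Fin 2 ⊕ Fin 2) (Fin 2 ⊕ Fin 2) F) *ᵥ v = vec 0 1 0 0}
  have step : ∀ (g : Sp), g ∈ H → ∀ {v}, (g : Matrix (Fin 2 ⊕ Fin 2) (Fin 2 ⊕ Fin 2) F) *ᵥ v ∈ O → v ∈ O := by
    rintro g hg v ⟨k, hk, e⟩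
    exact ⟨k * g, mul_mem hk hg, by rw [Submonoid.coe_mul, ← Matrix.mulVec_mulVec, e]⟩
  have h4 : ∀ y, vec 0 1 y 0 ∈ O := fun y => by
    refine step (embB (lowerU 1)) (hB _) ?_
    rw [embB_coe, embB_vec]
    refine step (embA (lowerU y)) (hA _) ?_
    rw [embA_coe, embA_vec]
    refine step (embB (lowerU (-1))) (hB _) ?_
    rw [embB_coe, embB_vec]
    refine ⟨1, one_mem _, ?_⟩
    rw [OneMemClass.coe_one, Matrix.one_mulVec]
    congr 1 <;> simp
  have h3 : ∀ x y, vec x 1 y 0 ∈ O := fun x y => by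
    refine step (embA (upperU (-x))) (hA _) ?_
    rw [embA_coe, embA_vec]
    refine step (embB (lowerU (-(x * y)))) (hB _) ?_
    rw [embB_coe, embB_vec]
    simpa using h4 y
  have h2 : ∀ a b c d, b ≠ 0 ∨ d ≠ 0 → vec a b c d ∈ O := fun a b c d h => by
    obtain ⟨M, e1, e2⟩ := exists_move b d h
    refine step (embB M) (hB _) ?_
    rw [embB_coe, embB_vec, e1, e2]
    exact h3 a c
  have h1 : ∀ a b c d, vec a b c d ≠ 0 → vec a b c d ∈ O := fun a b c d h => by
    by_cases hbd : b ≠ 0 ∨ d ≠ 0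
    · exact h2 a b c d hbd
    push Not at hbd
    obtain ⟨rfl, rfl⟩ := hbd
    by_cases ha : a = 0
    · have hc : c ≠ 0 := fun hc => h (by subst ha hc; ext (i | i) <;> fin_cases i <;> simp [vec])
      refine step (embA (upperU 1)) (hA _) ?_
      rw [embA_coe, embA_vec]
      exact h2 _ _ _ _ (Or.inr (by simpa using hc))
    · refine step (embA (lowerU 1)) (hA _) ?_
      rw [embA_coe, embA_vec]
      exact h2 _ _ _ _ (Or.inl (by simpa using ha))
  by_cases hw : w = 0
  · rw [show tv w c = 1 from Subtype.ext (by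
      refine Matrix.ext_iff_mulVec.mpr fun x => ?_
      rw [tv_mulVec, hw]; simp)]
    exact one_mem _
  have hwv : w = vec (w (.inl 0)) (w (.inl 1)) (w (.inr 0)) (w (.inr 1)) := by
    ext (i | i) <;> fin_cases i <;> simp [vec]
  obtain ⟨g, hg, e⟩ : w ∈ O := hwv ▸ h1 _ _ _ _ (hwv ▸ hw)
  have hbase : ∀ c : F, tv (vec 0 1 0 0) c ∈ H := fun c => by
    refine (show tv (vec (0 : F) 1 0 0) c = embB (upperU (-c)) ∨ tv (vec (0 : F) 1 0 0) c = embB (upperU c) from
      ?_).elim (fun h => h ▸ hB _) (fun h => h ▸ hB _)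
    first
      | left; apply Subtype.ext; refine Matrix.ext_iff_mulVec.mpr fun x => ?_
        rw [tv_mulVec, embB_coe]
        ext (i | i) <;> fin_cases i <;>
          simp [matB, vec, Cfsg.sympForm, Matrix.J, Matrix.mulVec, dotProduct, Fintype.sum_sum_type, Fin.sum_univ_two]
        done
      | right; apply Subtype.ext; refine Matrix.ext_iff_mulVec.mpr fun x => ?_
        rw [tv_mulVec, embB_coe]
        ext (i | i) <;> fin_cases i <;>
          simp [matB, vec, Cfsg.sympForm, Matrix.J, Matrix.mulVec, dotProduct, Fintype.sum_sum_type, Fin.sum_univ_two]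
  have := tv_conj g w c
  rw [e] at this
  rw [show tv w c = g⁻¹ * tv (vec 0 1 0 0) c * g by rw [← this]; group]
  exact mul_mem (mul_mem (inv_mem hg) (hbase c)) hg

end CfsgLib.SpFourPres
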