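import Cfsg.Agent.SpFourPres.Bound
import Cfsg.Agent.SpFourPres.Mats
import Cfsg.Agent.S2286
import Cfsg.Agent.S0245
import Cfsg.Agent.S0246

/-!
A presentation of `Sp₄(F)` with six generators and thirty relations.
-/

set_option autoImplicit false

namespace CfsgLib.SpFourPres

open CfsgLib.SL2 CfsgLib.SL2Pres.Short
open Monoid (Coprod)

variable {F : Type*} [Field F] [Fintype F]

local notation "Sp" => Matrix.symplecticGroup (Fin 2) F
local notation "SL" => Matrix.SpecialLinearGroup (Fin 2) F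

/-- the twelve relators, as elements of the free product of the two copies -/
def relators (ω : Fˣ) : List (Coprod SL SL) :=
  let A : SL →* Coprod SL SL := Coprod.inl
  let B : SL →* Coprod SL SL := Coprod.inr
  [A (diagT ω) * B (diagT ω) * (B (diagT ω) * A (diagT ω))⁻¹,
    A (diagT ω) * B (upperU 1) * (A (diagT ω))⁻¹ * (B (upperU ((ω : F) ^ 2)⁻¹))⁻¹,
    B (diagT ω) * A (upperU 1) * (B (diagT ω))⁻¹ * (A (upperU (ω : F)⁻¹))⁻¹,
    A (wOne F) * B (diagT ω) * (A (wOne F))⁻¹ * (A (diagT ω) * B (diagT ω))⁻¹,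
    B (wOne F) * A (diagT ω) * (B (wOne F))⁻¹ * (A (diagT ω) * (B (diagT ω) * B (diagT ω)))⁻¹,
    A (wOne F) * B (wOne F) * A (wOne F) * B (wOne F) * (B (wOne F) * A (wOne F) * B (wOne F) * A (wOne F))⁻¹,
    A (wOne F) * (B (wOne F) * A (upperU 1) * (B (wOne F))⁻¹) * (A (wOne F))⁻¹ *
      (B (wOne F) * A (upperU (-1)) * (B (wOne F))⁻¹)⁻¹,
    B (wOne F) * (A (wOne F) * B (upperU 1) * (A (wOne F))⁻¹) * (B (wOne F))⁻¹ *
      (A (wOne F) * B (upperU 1) * (A (wOne F))⁻¹)⁻¹,
    A (upperU 1) * B (upperU 1) * (A (upperU 1))⁻¹ * (B (upperU 1))⁻¹ *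
      (B (wOne F) * A (upperU (-1)) * (B (wOne F))⁻¹ * (A (wOne F) * B (upperU 1) * (A (wOne F))⁻¹))⁻¹,
    A (upperU 1) * (B (wOne F) * A (upperU 1) * (B (wOne F))⁻¹) * (A (upperU 1))⁻¹ *
      (B (wOne F) * A (upperU 1) * (B (wOne F))⁻¹)⁻¹ * (A (wOne F) * B (upperU (-2)) * (A (wOne F))⁻¹)⁻¹,
    A (upperU 1) * (A (wOne F) * B (upperU 1) * (A (wOne F))⁻¹) *
      ((A (wOne F) * B (upperU 1) * (A (wOne F))⁻¹) * A (upperU 1))⁻¹,
    B (upperU 1) * (A (wOne F) * B (upperU 1) * (A (wOne F))⁻¹) *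
      ((A (wOne F) * B (upperU 1) * (A (wOne F))⁻¹) * B (upperU 1))⁻¹]

theorem lift_relators {G : Type*} [Group G] (a b : SL →* G) (ω : Fˣ) (hω : ∀ z : Fˣ, z ∈ Subgroup.zpowers ω)
    (hgen : a.range ⊔ b.range = ⊤) (h : ∀ r ∈ relators ω, Coprod.lift a b r = 1) : Nonempty (Data F G) := by
  simp only [relators, List.forall_mem_cons, map_mul, map_inv, Coprod.lift_apply_inl, Coprod.lift_apply_inr,
    mul_inv_eq_one] at h
  obtain ⟨h1, h2, h3, h4, h5, h6, h7, h8, h9, h10, h11, h12, -⟩ := h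
  exact ⟨⟨a, b, ω, hω, hgen, h1, h2, h3, h4, h5, h6, h7, h8, h9, h10, h11, h12⟩⟩

theorem lift_emb (ω : Fˣ) : ∀ r ∈ relators ω, Coprod.lift (embA (F := F)) embB r = 1 := by
  obtain ⟨h1, h2, h3, h4, h5, h6, h7, h8, h9, h10, h11, h12⟩ := rels ω
  simp only [relators, List.forall_mem_cons, map_mul, map_inv, Coprod.lift_apply_inl, Coprod.lift_apply_inr,
    mul_inv_eq_one]
  exact ⟨h1, h2, h3, h4, h5, h6, h7, h8, h9, h10, h11, h12, fun r hr => by simp at hr⟩

theorem card_bound : Nat.card Fˣ * Nat.card Fˣ * Nat.card F ^ 4 *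
    ((1 + Nat.card F) * (1 + Nat.card F + Nat.card F ^ 2 + Nat.card F ^ 3)) = Nat.card Sp := by
  classical
  rw [Cfsg.Agent.S0245.result rfl 2, Nat.card_eq_fintype_card (α := F), Nat.card_eq_fintype_card (α := Fˣ),
    Fintype.card_units]
  simp only [Finset.prod_range_succ, Finset.prod_range_zero, one_mul]
  obtain ⟨r, hr⟩ : ∃ r, Fintype.card F = r + 1 := ⟨_, (Nat.succ_pred_eq_of_pos Fintype.card_pos).symm⟩
  rw [hr, Nat.add_sub_cancel]
  have e1 : (r + 1) ^ (2 * (0 + 1)) - 1 = r * (r + 2) := by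
    rw [show (r + 1) ^ (2 * (0 + 1)) = r * (r + 2) + 1 by ring, Nat.add_sub_cancel]
  have e2 : (r + 1) ^ (2 * (1 + 1)) - 1 = r * ((r + 1) ^ 3 + (r + 1) ^ 2 + (r + 1) + 1) := by
    rw [show (r + 1) ^ (2 * (1 + 1)) = r * ((r + 1) ^ 3 + (r + 1) ^ 2 + (r + 1) + 1) + 1 by ring,
      Nat.add_sub_cancel]
  rw [e1, e2]
  ring

/-- `Sp₄(F)` and `PSp₄(F)` on six generators. -/
theorem exists_pres :
    (∃ rels : Finset (FreeGroup (Fin 6)), rels.card ≤ 30 ∧
      Nonempty (PresentedGroup (↑rels : Set (FreeGroup (Fin 6))) ≃* Sp)) ∧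
    (∃ rels : Finset (FreeGroup (Fin 6)), rels.card ≤ 31 ∧
      Nonempty (PresentedGroup (↑rels : Set (FreeGroup (Fin 6))) ≃* Cfsg.PSp 2 F)) := by
  classical
  obtain ⟨⟨R2, hR2, ⟨e⟩⟩, -⟩ := Cfsg.Agent.S2286.result (F := F)
  obtain ⟨ω, hω⟩ := exists_primitive (F := F)
  let ιA : FreeGroup (Fin 3) →* FreeGroup (Fin 6) := FreeGroup.map (Fin.castAdd 3)
  let ιB : FreeGroup (Fin 3) →* FreeGroup (Fin 6) := FreeGroup.map (Fin.natAdd 3)
  let q : FreeGroup (Fin 3) →* SL := e.toMonoidHom.comp (PresentedGroup.mk _)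
  have hq : Function.Surjective q := e.surjective.comp (PresentedGroup.mk_surjective _)
  have hq1 : ∀ r ∈ R2, q r = 1 := fun r hr => by
    show e (PresentedGroup.mk _ r) = 1
    rw [PresentedGroup.one_of_mem (Finset.mem_coe.mpr hr), map_one]
  let wp : FreeGroup (Fin 6) →* Coprod SL SL :=
    FreeGroup.lift (Fin.addCases (m := 3) (n := 3) (fun i => Coprod.inl (q (FreeGroup.of i)))
      (fun i => Coprod.inr (q (FreeGroup.of i))))
  have hwA : wp.comp ιA = Coprod.inl.comp q := FreeGroup.ext_hom _ _ fun i => by simp [wp, ιA]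
  have hwB : wp.comp ιB = Coprod.inr.comp q := FreeGroup.ext_hom _ _ fun i => by simp [wp, ιB, -Fin.natAdd_eq_addNat]
  have hwp : Function.Surjective wp := by
    rw [← MonoidHom.range_eq_top, eq_top_iff, ← Coprod.range_inl_sup_range_inr, sup_le_iff]
    constructor
    · rintro _ ⟨a, rfl⟩
      obtain ⟨x, rfl⟩ := hq a
      exact ⟨ιA x, DFunLike.congr_fun hwA x⟩
    · rintro _ ⟨b, rfl⟩
      obtain ⟨x, rfl⟩ := hq b
      exact ⟨ιB x, DFunLike.congr_fun hwB x⟩
  choose word hword using hwp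
  let π₀ : FreeGroup (Fin 6) →* Sp := (Coprod.lift embA embB).comp wp
  have hπ₀ : Function.Surjective π₀ := by
    intro g
    have : g ∈ (Coprod.lift (embA (F := F)) embB).range := by rw [Coprod.range_lift, range_sup]; trivial
    obtain ⟨w, rfl⟩ := this
    exact ⟨word w, by simp [π₀, hword]⟩
  let rels : Finset (FreeGroup (Fin 6)) := R2.image ιA ∪ R2.image ιB ∪ ((relators ω).map word).toFinset
  have hcard : rels.card ≤ 30 := by
    refine (Finset.card_union_le _ _).trans ?_
    refine (add_le_add ((Finset.card_union_le _ _).trans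
      (add_le_add Finset.card_image_le Finset.card_image_le)) (List.toFinset_card_le _)).trans ?_
    simp [relators]
    omega
  have hker : ∀ (Q : Type _) [Group Q] (f : Sp →* Q), ∀ r ∈ rels, (f.comp π₀) r = 1 := by
    intro Q _ f r hr
    simp only [rels, Finset.mem_union, Finset.mem_image, List.mem_toFinset, List.mem_map] at hr
    suffices π₀ r = 1 by rw [MonoidHom.comp_apply, this, map_one]
    rcases hr with (⟨r, h, rfl⟩ | ⟨r, h, rfl⟩) | ⟨r, h, rfl⟩
    · show Coprod.lift embA embB ((wp.comp ιA) r) = 1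
      rw [hwA, MonoidHom.comp_apply, hq1 r h, map_one, map_one]
    · show Coprod.lift embA embB ((wp.comp ιB) r) = 1
      rw [hwB, MonoidHom.comp_apply, hq1 r h, map_one, map_one]
    · show Coprod.lift embA embB (wp (word r)) = 1
      rw [hword]
      exact lift_emb ω r h
  have hbound : ∀ {G : Type} [Group G] (f : FreeGroup (Fin 6) →* G), Function.Surjective f →
      (∀ r ∈ rels, f r = 1) → Finite G ∧ Nat.card G ≤ Nat.card Sp := by
    intro G _ f hf hrel
    let φA : SL →* G := (PresentedGroup.toGroup (f := fun i => f (ιA (FreeGroup.of i))) (fun r hr => by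
      rw [show FreeGroup.lift (fun i => f (ιA (FreeGroup.of i))) = f.comp ιA from
        FreeGroup.ext_hom _ _ fun i => by simp]
      exact hrel _ (Finset.mem_union_left _ (Finset.mem_union_left _ (Finset.mem_image_of_mem _ hr))))).comp
        e.symm.toMonoidHom
    let φB : SL →* G := (PresentedGroup.toGroup (f := fun i => f (ιB (FreeGroup.of i))) (fun r hr => by
      rw [show FreeGroup.lift (fun i => f (ιB (FreeGroup.of i))) = f.comp ιB from
        FreeGroup.ext_hom _ _ fun i => by simp]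
      exact hrel _ (Finset.mem_union_left _ (Finset.mem_union_right _ (Finset.mem_image_of_mem _ hr))))).comp
        e.symm.toMonoidHom
    have hA : φA.comp q = f.comp ιA := FreeGroup.ext_hom _ _ fun i => by
      show _ = f (ιA (FreeGroup.of i))
      simp only [φA, q, MonoidHom.comp_apply, MulEquiv.coe_toMonoidHom, MulEquiv.symm_apply_apply]
      exact FreeGroup.lift_apply_of
    have hB : φB.comp q = f.comp ιB := FreeGroup.ext_hom _ _ fun i => by
      show _ = f (ιB (FreeGroup.of i))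
      simp only [φB, q, MonoidHom.comp_apply, MulEquiv.coe_toMonoidHom, MulEquiv.symm_apply_apply]
      exact FreeGroup.lift_apply_of
    have hl : (Coprod.lift φA φB).comp wp = f := FreeGroup.ext_hom _ _ fun i => by
      refine Fin.addCases (m := 3) (n := 3) (fun j => ?_) (fun j => ?_) i
      · have := DFunLike.congr_fun hA (FreeGroup.of j)
        simp only [MonoidHom.comp_apply, ιA, FreeGroup.map.of] at this
        simp [wp, this]
      · have := DFunLike.congr_fun hB (FreeGroup.of j)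
        simp only [MonoidHom.comp_apply, ιB, FreeGroup.map.of] at this
        simp [wp, this, -Fin.natAdd_eq_addNat]
    have hgen : φA.range ⊔ φB.range = ⊤ := by
      rw [← Coprod.range_lift, eq_top_iff]
      rintro x -
      obtain ⟨y, rfl⟩ := hf x
      exact ⟨wp y, DFunLike.congr_fun hl y⟩
    obtain ⟨D⟩ := lift_relators φA φB ω hω hgen fun r hr => by
      rw [← hword r]
      show ((Coprod.lift φA φB).comp wp) (word r) = 1
      rw [hl]
      exact hrel _ (Finset.mem_union_right _ (List.mem_toFinset.mpr (List.mem_map.mpr ⟨r, hr, rfl⟩)))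
    obtain ⟨hfin, hle⟩ := D.card_le
    exact ⟨hfin, hle.trans_eq card_bound⟩
  obtain ⟨hfin, hle⟩ := hbound (PresentedGroup.mk (rels : Set (FreeGroup (Fin 6))))
    (PresentedGroup.mk_surjective _) (fun r hr => PresentedGroup.one_of_mem hr)
  let π : PresentedGroup (rels : Set (FreeGroup (Fin 6))) →* Sp :=
    PresentedGroup.toGroup (f := fun i => π₀ (FreeGroup.of i)) (fun r hr => by
      rw [show FreeGroup.lift (fun i => π₀ (FreeGroup.of i)) = π₀ from FreeGroup.ext_hom _ _ fun i => by simp]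
      simpa using hker Sp (MonoidHom.id _) r hr)
  have hπ : ∀ x, π (PresentedGroup.mk _ x) = π₀ x := fun x => by
    have : π.comp (PresentedGroup.mk _) = π₀ := FreeGroup.ext_hom _ _ fun i => FreeGroup.lift_apply_of
    exact DFunLike.congr_fun this x
  have hπs : Function.Surjective π := fun g => by
    obtain ⟨x, rfl⟩ := hπ₀ g
    exact ⟨_, hπ x⟩
  have hbij : Function.Bijective π := by
    haveI := hfin
    exact (Nat.bijective_iff_surjective_and_card π).mpr
      ⟨hπs, le_antisymm hle (Nat.card_le_card_of_surjective π hπs)⟩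
  refine ⟨⟨rels, hcard, ⟨MulEquiv.ofBijective π hbij⟩⟩, ?_⟩
  obtain ⟨z, hz, hzgen⟩ : ∃ z ∈ Subgroup.center Sp, Subgroup.center Sp ≤ Subgroup.zpowers z := by
    have hc := Cfsg.Agent.S0246.result (F := F) rfl 2 (by norm_num)
    haveI : IsCyclic (Subgroup.center Sp) := by
      rcases (Nat.dvd_prime Nat.prime_two).mp (hc ▸ Nat.gcd_dvd_left 2 _) with h | h
      · haveI := (Nat.card_eq_one_iff_unique.mp h).1
        infer_instance
      · haveI : Fact (Nat.Prime 2) := ⟨Nat.prime_two⟩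
        exact isCyclic_of_prime_card h
    obtain ⟨z, hz⟩ := IsCyclic.exists_generator (α := Subgroup.center Sp)
    refine ⟨z, z.2, fun x hx => ?_⟩
    obtain ⟨j, hj⟩ := Subgroup.mem_zpowers_iff.mp (hz ⟨x, hx⟩)
    exact Subgroup.mem_zpowers_iff.mpr ⟨j, by simpa using congrArg Subtype.val hj⟩
  obtain ⟨wz, hwz⟩ := hπ₀ z
  refine ⟨insert wz rels, (Finset.card_insert_le _ _).trans (by omega), ?_⟩
  let θ₀ : PresentedGroup (rels : Set (FreeGroup (Fin 6))) →*
      PresentedGroup (↑(insert wz rels) : Set (FreeGroup (Fin 6))) :=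
    PresentedGroup.toGroup (f := fun i => PresentedGroup.mk _ (FreeGroup.of i)) (fun r hr => by
      rw [show FreeGroup.lift (fun i => PresentedGroup.mk _ (FreeGroup.of i)) =
        PresentedGroup.mk (↑(insert wz rels) : Set (FreeGroup (Fin 6))) from FreeGroup.ext_hom _ _ fun i => by simp]
      exact PresentedGroup.one_of_mem (Finset.mem_coe.mpr (Finset.mem_insert_of_mem hr)))
  let f : FreeGroup (Fin 6) →* Cfsg.PSp 2 F := (QuotientGroup.mk' _).comp π₀
  let ρ : PresentedGroup (↑(insert wz rels) : Set (FreeGroup (Fin 6))) →* Cfsg.PSp 2 F :=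
    PresentedGroup.toGroup (f := fun i => f (FreeGroup.of i)) (fun r hr => by
      rw [show FreeGroup.lift (fun i => f (FreeGroup.of i)) = f from FreeGroup.ext_hom _ _ fun i => by simp]
      rcases Finset.mem_insert.mp (Finset.mem_coe.mp hr) with rfl | hr
      · exact (QuotientGroup.eq_one_iff _).mpr (hwz ▸ hz)
      · exact hker _ (QuotientGroup.mk' _) r hr)
  have hρ : ∀ x, ρ (PresentedGroup.mk _ x) = f x := fun x => by
    have : ρ.comp (PresentedGroup.mk _) = f := FreeGroup.ext_hom _ _ fun i => FreeGroup.lift_apply_of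
    exact DFunLike.congr_fun this x
  have hθ : ∀ x, θ₀ (PresentedGroup.mk _ x) = PresentedGroup.mk _ x := fun x => by
    have : θ₀.comp (PresentedGroup.mk _) = PresentedGroup.mk (↑(insert wz rels) : Set (FreeGroup (Fin 6))) :=
      FreeGroup.ext_hom _ _ fun i => FreeGroup.lift_apply_of
    exact DFunLike.congr_fun this x
  refine ⟨MulEquiv.ofBijective ρ ⟨(injective_iff_map_eq_one ρ).mpr fun y hy => ?_, fun g => ?_⟩⟩
  · obtain ⟨x, rfl⟩ := PresentedGroup.mk_surjective _ y
    rw [hρ] at hy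
    obtain ⟨j, hj⟩ := Subgroup.mem_zpowers_iff.mp (hzgen ((QuotientGroup.eq_one_iff _).mp hy))
    have hx : PresentedGroup.mk (rels : Set (FreeGroup (Fin 6))) x = PresentedGroup.mk _ wz ^ j :=
      hbij.1 (by rw [map_zpow, hπ, hπ, hwz, hj])
    rw [← hθ, hx, map_zpow, hθ, PresentedGroup.one_of_mem (Finset.mem_coe.mpr (Finset.mem_insert_self _ _)),
      one_zpow]
  · obtain ⟨g, rfl⟩ := QuotientGroup.mk_surjective g
    obtain ⟨x, rfl⟩ := hπ₀ g
    exact ⟨_, hρ x⟩

end CfsgLib.SpFourPres
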