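import Cfsg.Agent.SL2.Elements
import Cfsg.Agent.SL2Pres.Recognise
import Cfsg.Agent.SL2Pres.NineRels
import Cfsg.Agent.SLn.Basic

/-!
Two copies of `SL₂(F)` with twelve relations between them generate a group of order at most `|Sp₄(F)|`:
a Bruhat decomposition by counting.
-/

set_option autoImplicit false

namespace CfsgLib.SpFourPres

open CfsgLib.SL2 CfsgLib.SL2Pres.Short
open scoped Pointwise

variable {F : Type*} [Field F] [Fintype F] {G : Type*} [Group G]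

/-- Squares span a finite field additively. -/
theorem spread_sq (P : F → Prop) (h0 : P 0) (hadd : ∀ a b, P a → P b → P (a + b)) (s : F) (hs : s ≠ 0)
    (h : ∀ z : Fˣ, P (s * (z : F) ^ 2)) (w : F) : P w := by
  obtain ⟨p, _⟩ := CharP.exists F
  have hp : p.Prime := CharP.char_is_prime F p
  have hneg : ∀ a, P a → P (-a) := fun a ha => by
    have hn : ∀ n : ℕ, P ((n : F) * a) := by
      intro n
      induction n with
      | zero => simpa using h0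
      | succ n ih => rw [Nat.cast_succ, add_mul, one_mul]; exact hadd _ _ ih ha
    have := hn (p - 1)
    rwa [Nat.cast_sub hp.pos, CharP.cast_eq_zero, Nat.cast_one, zero_sub, neg_one_mul] at this
  have hsq : ∀ y : F, P (s * y ^ 2) := fun y => by
    rcases eq_or_ne y 0 with rfl | hy
    · simpa using h0
    · exact h (Units.mk0 y hy)
  haveI : CharP F (ringChar F) := ringChar.charP F
  by_cases h2 : (2 : F) = 0
  · have : ringChar F = 2 := by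
      have hd : ringChar F ∣ 2 := ringChar.dvd (by exact_mod_cast h2)
      exact (Nat.prime_dvd_prime_iff_eq (CharP.char_is_prime F (ringChar F)) Nat.prime_two).mp hd
    obtain ⟨y, hy⟩ := FiniteField.isSquare_of_char_two this (s⁻¹ * w)
    have := hsq y
    rwa [pow_two, ← hy, ← mul_assoc, mul_inv_cancel₀ hs, one_mul] at this
  · have e : w = s * ((s⁻¹ * w + 1) / 2) ^ 2 + -(s * ((s⁻¹ * w - 1) / 2) ^ 2) := by field_simp; ring
    rw [e]
    exact hadd _ _ (hsq _) (hneg _ (hsq _))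

/-- Conjugation carries a join into a subgroup once it carries both factors. -/
theorem conj_sup {P Q R : Subgroup G} {g : G} (hP : ∀ x ∈ P, g * x * g⁻¹ ∈ R) (hQ : ∀ x ∈ Q, g * x * g⁻¹ ∈ R) :
    ∀ x ∈ P ⊔ Q, g * x * g⁻¹ ∈ R := by
  intro x hx
  have : P ⊔ Q ≤ R.comap (MulAut.conj g).toMonoidHom :=
    sup_le (fun y hy => by simpa using hP y hy) (fun y hy => by simpa using hQ y hy)
  simpa using this hx

/-- `K` is normalised by `P` if conjugation by elements of `P` carries `K` into itself. -/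
theorem le_normalizer_of {P K : Subgroup G} (h : ∀ p ∈ P, ∀ k ∈ K, p * k * p⁻¹ ∈ K) :
    P ≤ Subgroup.normalizer (K : Set G) := fun p hp => by
  rw [Subgroup.mem_normalizer_iff]
  refine fun k => ⟨h p hp k, fun hk => ?_⟩
  have := h _ (inv_mem hp) _ hk
  rwa [show p⁻¹ * (p * k * p⁻¹) * p⁻¹⁻¹ = k by group] at this

/-- The order of a product of a finite subgroup by a finite subgroup normalising it. -/
theorem finite_sup {P K : Subgroup G} (h : P ≤ Subgroup.normalizer (K : Set G)) (hP : (P : Set G).Finite)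
    (hK : (K : Set G).Finite) {m n : ℕ} (hm : Set.ncard (P : Set G) ≤ m) (hn : Set.ncard (K : Set G) ≤ n) :
    ((P ⊔ K : Subgroup G) : Set G).Finite ∧ Set.ncard ((P ⊔ K : Subgroup G) : Set G) ≤ m * n := by
  rw [Subgroup.coe_mul_of_left_le_normalizer_right P K h]
  have e : (P : Set G) * (K : Set G) = (fun q : G × G => q.1 * q.2) '' ((P : Set G) ×ˢ (K : Set G)) :=
    (Set.image_mul_prod).symm
  rw [e]
  refine ⟨(hP.prod hK).image _, (Set.ncard_image_le (hP.prod hK)).trans ?_⟩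
  rw [Set.ncard_prod]
  exact Nat.mul_le_mul hm hn

theorem finite_range {H : Type*} [Group H] [Finite H] (f : H →* G) :
    (f.range : Set G).Finite ∧ Set.ncard (f.range : Set G) ≤ Nat.card H := by
  rw [MonoidHom.coe_range]
  exact ⟨Set.finite_range f, by rw [← Set.image_univ, ← Set.ncard_univ]; exact Set.ncard_image_le Set.finite_univ⟩

/-- Two copies of `SL₂` with the relations of a pair of fundamental root subgroups of type `C₂`. -/
structure Data (F : Type*) [Field F] [Fintype F] (G : Type*) [Group G] where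
  A : Matrix.SpecialLinearGroup (Fin 2) F →* G
  B : Matrix.SpecialLinearGroup (Fin 2) F →* G
  ω : Fˣ
  hω : ∀ z : Fˣ, z ∈ Subgroup.zpowers ω
  gen : A.range ⊔ B.range = ⊤
  hh : Commute (A (diagT ω)) (B (diagT ω))
  ab : A (diagT ω) * B (upperU 1) * (A (diagT ω))⁻¹ = B (upperU ((ω : F) ^ 2)⁻¹)
  ba : B (diagT ω) * A (upperU 1) * (B (diagT ω))⁻¹ = A (upperU (ω : F)⁻¹)
  tahb : A (wOne F) * B (diagT ω) * (A (wOne F))⁻¹ = A (diagT ω) * B (diagT ω)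
  tbha : B (wOne F) * A (diagT ω) * (B (wOne F))⁻¹ = A (diagT ω) * (B (diagT ω) * B (diagT ω))
  braid : A (wOne F) * B (wOne F) * A (wOne F) * B (wOne F) = B (wOne F) * A (wOne F) * B (wOne F) * A (wOne F)
  fixc : A (wOne F) * (B (wOne F) * A (upperU 1) * (B (wOne F))⁻¹) * (A (wOne F))⁻¹ =
    B (wOne F) * A (upperU (-1)) * (B (wOne F))⁻¹
  fixd : B (wOne F) * (A (wOne F) * B (upperU 1) * (A (wOne F))⁻¹) * (B (wOne F))⁻¹ =
    A (wOne F) * B (upperU 1) * (A (wOne F))⁻¹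
  cab : A (upperU 1) * B (upperU 1) * (A (upperU 1))⁻¹ * (B (upperU 1))⁻¹ =
    B (wOne F) * A (upperU (-1)) * (B (wOne F))⁻¹ * (A (wOne F) * B (upperU 1) * (A (wOne F))⁻¹)
  cac : A (upperU 1) * (B (wOne F) * A (upperU 1) * (B (wOne F))⁻¹) * (A (upperU 1))⁻¹ *
    (B (wOne F) * A (upperU 1) * (B (wOne F))⁻¹)⁻¹ = A (wOne F) * B (upperU (-2)) * (A (wOne F))⁻¹
  cad : Commute (A (upperU 1)) (A (wOne F) * B (upperU 1) * (A (wOne F))⁻¹)
  cbd : Commute (B (upperU 1)) (A (wOne F) * B (upperU 1) * (A (wOne F))⁻¹)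

namespace Data

variable (D : Data F G)

/-- root subgroup `a` -/
def xa : Multiplicative F →* G := D.A.comp upperHom
/-- root subgroup `b` -/
def xb : Multiplicative F →* G := D.B.comp upperHom
/-- torus of `a` -/
def ha : Fˣ →* G := D.A.comp (CfsgLib.SL2.diagHom)
/-- torus of `b` -/
def hb : Fˣ →* G := D.B.comp (CfsgLib.SL2.diagHom)
/-- Weyl element of `a` -/
def ta : G := D.A (wOne F)
/-- Weyl element of `b` -/
def tb : G := D.B (wOne F)
/-- root subgroup `a + b` -/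
def xc : Multiplicative F →* G := (MulAut.conj D.tb).toMonoidHom.comp D.xa
/-- root subgroup `2 a + b` -/
def xd : Multiplicative F →* G := (MulAut.conj D.ta).toMonoidHom.comp D.xb

/-- value of a root homomorphism -/
abbrev v (_ : Data F G) (x : Multiplicative F →* G) (t : F) : G := x (Multiplicative.ofAdd t)

theorem v_add (x : Multiplicative F →* G) (t u : F) : D.v x (t + u) = D.v x t * D.v x u := map_mul x _ _

theorem v_zero (x : Multiplicative F →* G) : D.v x 0 = 1 := map_one x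

theorem v_mem (x : Multiplicative F →* G) (t : F) : D.v x t ∈ x.range := ⟨_, rfl⟩

theorem xc_apply (t : F) : D.v D.xc t = D.tb * D.v D.xa t * D.tb⁻¹ := rfl

theorem xd_apply (t : F) : D.v D.xd t = D.ta * D.v D.xb t * D.ta⁻¹ := rfl

theorem exists_pow (z : Fˣ) : ∃ k : ℕ, D.ω ^ k = z := by
  classical
  obtain ⟨k, hk⟩ := mem_zpowers_iff_mem_range_orderOf.mp (D.hω z) |> Finset.mem_image.mp
  exact ⟨k, hk.2⟩

theorem hom_ext {f g : Fˣ →* G} (h : f D.ω = g D.ω) (z : Fˣ) : f z = g z := by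
  obtain ⟨k, rfl⟩ := D.exists_pow z
  rw [map_pow, map_pow, h]

/-- extending a scaling action from the generator -/
theorem act {H : Fˣ →* G} (x : Multiplicative F →* G) (χ : Fˣ →* Fˣ)
    (h : ∀ t, H D.ω * D.v x t * (H D.ω)⁻¹ = D.v x ((χ D.ω : F) * t)) :
    ∀ z t, H z * D.v x t * (H z)⁻¹ = D.v x ((χ z : F) * t) := by
  intro z
  obtain ⟨k, rfl⟩ := D.exists_pow z
  induction k with
  | zero => simp
  | succ k ih =>
    intro t
    rw [show H (D.ω ^ (k + 1)) * D.v x t * (H (D.ω ^ (k + 1)))⁻¹ =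
      H (D.ω ^ k) * (H D.ω * D.v x t * (H D.ω)⁻¹) * (H (D.ω ^ k))⁻¹ by rw [pow_succ, map_mul]; group,
      h, ih, pow_succ, map_mul, Units.val_mul, mul_assoc]

theorem ha_xa (z : Fˣ) (t : F) : D.ha z * D.v D.xa t * (D.ha z)⁻¹ = D.v D.xa ((z : F) ^ 2 * t) := by
  show D.A (diagT z) * D.A (upperU t) * (D.A (diagT z))⁻¹ = D.A (upperU _)
  rw [← map_inv, ← map_mul, ← map_mul, diagT_conj_upperU]
  rfl

theorem hb_xb (z : Fˣ) (t : F) : D.hb z * D.v D.xb t * (D.hb z)⁻¹ = D.v D.xb ((z : F) ^ 2 * t) := by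
  show D.B (diagT z) * D.B (upperU t) * (D.B (diagT z))⁻¹ = D.B (upperU _)
  rw [← map_inv, ← map_mul, ← map_mul, diagT_conj_upperU]
  rfl

theorem hcomm (z w : Fˣ) : Commute (D.ha z) (D.hb w) := by
  obtain ⟨k, rfl⟩ := D.exists_pow z
  obtain ⟨l, rfl⟩ := D.exists_pow w
  rw [map_pow, map_pow]
  exact D.hh.pow_pow k l

/-- the character `z ↦ z ^ n` -/
def pw (n : ℤ) : Fˣ →* Fˣ := zpowGroupHom n

theorem ha_xb (z : Fˣ) (t : F) : D.ha z * D.v D.xb t * (D.ha z)⁻¹ = D.v D.xb (((z : F) ^ 2)⁻¹ * t) := by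
  have h : ∀ t, D.ha D.ω * D.v D.xb t * (D.ha D.ω)⁻¹ = D.v D.xb ((pw (-2) D.ω : F) * t) := by
    refine spread_sq (fun t => D.ha D.ω * D.v D.xb t * (D.ha D.ω)⁻¹ = D.v D.xb ((pw (-2) D.ω : F) * t))
      (by simp [D.v_zero]) (fun a b ea eb => ?_) 1 one_ne_zero (fun w => ?_)
    · rw [mul_add, D.v_add, D.v_add, ← ea, ← eb]; group
    · have e := D.hb_xb w 1
      rw [mul_one] at e
      rw [one_mul, ← e, show D.ha D.ω * (D.hb w * D.v D.xb 1 * (D.hb w)⁻¹) * (D.ha D.ω)⁻¹ =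
        (D.ha D.ω * D.hb w) * D.v D.xb 1 * (D.ha D.ω * D.hb w)⁻¹ by group, (D.hcomm _ _).eq,
        show (D.hb w * D.ha D.ω) * D.v D.xb 1 * (D.hb w * D.ha D.ω)⁻¹ =
          D.hb w * (D.ha D.ω * D.v D.xb 1 * (D.ha D.ω)⁻¹) * (D.hb w)⁻¹ by group,
        show D.ha D.ω * D.v D.xb 1 * (D.ha D.ω)⁻¹ = D.v D.xb (((D.ω : F) ^ 2)⁻¹) from D.ab, D.hb_xb]
      simp [pw, zpow_neg, mul_comm]
  simpa [pw, zpow_neg] using D.act D.xb (pw (-2)) h z t

theorem hb_xa (z : Fˣ) (t : F) : D.hb z * D.v D.xa t * (D.hb z)⁻¹ = D.v D.xa ((z : F)⁻¹ * t) := by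
  have h : ∀ t, D.hb D.ω * D.v D.xa t * (D.hb D.ω)⁻¹ = D.v D.xa ((pw (-1) D.ω : F) * t) := by
    refine spread_sq (fun t => D.hb D.ω * D.v D.xa t * (D.hb D.ω)⁻¹ = D.v D.xa ((pw (-1) D.ω : F) * t))
      (by simp [D.v_zero]) (fun a b ea eb => ?_) 1 one_ne_zero (fun w => ?_)
    · rw [mul_add, D.v_add, D.v_add, ← ea, ← eb]; group
    · have e := D.ha_xa w 1
      rw [mul_one] at e
      rw [one_mul, ← e, show D.hb D.ω * (D.ha w * D.v D.xa 1 * (D.ha w)⁻¹) * (D.hb D.ω)⁻¹ =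
        (D.hb D.ω * D.ha w) * D.v D.xa 1 * (D.hb D.ω * D.ha w)⁻¹ by group, ← (D.hcomm _ _).eq,
        show (D.ha w * D.hb D.ω) * D.v D.xa 1 * (D.ha w * D.hb D.ω)⁻¹ =
          D.ha w * (D.hb D.ω * D.v D.xa 1 * (D.hb D.ω)⁻¹) * (D.ha w)⁻¹ by group,
        show D.hb D.ω * D.v D.xa 1 * (D.hb D.ω)⁻¹ = D.v D.xa ((D.ω : F)⁻¹) from D.ba, D.ha_xa]
      simp [pw, zpow_neg, mul_comm]
  simpa [pw, zpow_neg] using D.act D.xa (pw (-1)) h z t

theorem ta_ha (z : Fˣ) : D.ta * D.ha z * D.ta⁻¹ = (D.ha z)⁻¹ := by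
  show D.A (wOne F) * D.A (diagT z) * (D.A (wOne F))⁻¹ = (D.A (diagT z))⁻¹
  rw [← map_inv, ← map_mul, ← map_mul, wOne_diag, map_inv]

theorem tb_hb (z : Fˣ) : D.tb * D.hb z * D.tb⁻¹ = (D.hb z)⁻¹ := by
  show D.B (wOne F) * D.B (diagT z) * (D.B (wOne F))⁻¹ = (D.B (diagT z))⁻¹
  rw [← map_inv, ← map_mul, ← map_mul, wOne_diag, map_inv]

theorem ta_hb (z : Fˣ) : D.ta * D.hb z * D.ta⁻¹ = D.ha z * D.hb z := by
  obtain ⟨k, rfl⟩ := D.exists_pow z
  simp only [map_pow]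
  rw [← conj_pow, show D.ta * D.hb D.ω * D.ta⁻¹ = D.ha D.ω * D.hb D.ω from D.tahb, (D.hcomm _ _).mul_pow]

theorem tb_ha (z : Fˣ) : D.tb * D.ha z * D.tb⁻¹ = D.ha z * (D.hb z * D.hb z) := by
  obtain ⟨k, rfl⟩ := D.exists_pow z
  simp only [map_pow]
  rw [← conj_pow, show D.tb * D.ha D.ω * D.tb⁻¹ = D.ha D.ω * (D.hb D.ω * D.hb D.ω) from D.tbha,
    ((D.hcomm _ _).mul_right (D.hcomm _ _)).mul_pow, (Commute.refl _).mul_pow]

theorem ta_hb' (z : Fˣ) : D.ta⁻¹ * D.hb z * D.ta = D.ha z * D.hb z := by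
  have e : D.ta * (D.ha z * D.hb z) * D.ta⁻¹ = D.hb z := by
    rw [show D.ta * (D.ha z * D.hb z) * D.ta⁻¹ = (D.ta * D.ha z * D.ta⁻¹) * (D.ta * D.hb z * D.ta⁻¹) by group,
      D.ta_ha, D.ta_hb, inv_mul_cancel_left]
  calc D.ta⁻¹ * D.hb z * D.ta = D.ta⁻¹ * (D.ta * (D.ha z * D.hb z) * D.ta⁻¹) * D.ta := by rw [e]
    _ = _ := by group

theorem tb_ha' (z : Fˣ) : D.tb⁻¹ * D.ha z * D.tb = D.ha z * (D.hb z * D.hb z) := by
  have e : D.tb * (D.ha z * (D.hb z * D.hb z)) * D.tb⁻¹ = D.ha z := by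
    rw [show D.tb * (D.ha z * (D.hb z * D.hb z)) * D.tb⁻¹ = (D.tb * D.ha z * D.tb⁻¹) *
      (D.tb * D.hb z * D.tb⁻¹) * (D.tb * D.hb z * D.tb⁻¹) by group, D.tb_hb, D.tb_ha]
    group
  calc D.tb⁻¹ * D.ha z * D.tb = D.tb⁻¹ * (D.tb * (D.ha z * (D.hb z * D.hb z)) * D.tb⁻¹) * D.tb := by rw [e]
    _ = _ := by group

theorem tb_hb' (z : Fˣ) : D.tb⁻¹ * D.hb z * D.tb = (D.hb z)⁻¹ := by
  calc D.tb⁻¹ * D.hb z * D.tb = D.tb⁻¹ * ((D.hb z)⁻¹)⁻¹ * D.tb := by rw [inv_inv]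
    _ = D.tb⁻¹ * (D.tb * D.hb z * D.tb⁻¹)⁻¹ * D.tb := by rw [D.tb_hb]
    _ = _ := by group

theorem ta_ha' (z : Fˣ) : D.ta⁻¹ * D.ha z * D.ta = (D.ha z)⁻¹ := by
  calc D.ta⁻¹ * D.ha z * D.ta = D.ta⁻¹ * ((D.ha z)⁻¹)⁻¹ * D.ta := by rw [inv_inv]
    _ = D.ta⁻¹ * (D.ta * D.ha z * D.ta⁻¹)⁻¹ * D.ta := by rw [D.ta_ha]
    _ = _ := by group

theorem shift (g t x : G) : g * (t * x * t⁻¹) * g⁻¹ = t * ((t⁻¹ * g * t) * x * (t⁻¹ * g * t)⁻¹) * t⁻¹ := by group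

theorem hb_xc (z : Fˣ) (t : F) : D.hb z * D.v D.xc t * (D.hb z)⁻¹ = D.v D.xc ((z : F) * t) := by
  rw [D.xc_apply, shift, D.tb_hb', ← map_inv, D.hb_xa, ← D.xc_apply]
  simp

theorem ha_xc (z : Fˣ) (t : F) : D.ha z * D.v D.xc t * (D.ha z)⁻¹ = D.v D.xc t := by
  rw [D.xc_apply, shift, D.tb_ha',
    show D.ha z * (D.hb z * D.hb z) * D.v D.xa t * (D.ha z * (D.hb z * D.hb z))⁻¹ =
      D.ha z * (D.hb z * (D.hb z * D.v D.xa t * (D.hb z)⁻¹) * (D.hb z)⁻¹) * (D.ha z)⁻¹ by group,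
    D.hb_xa, D.hb_xa, D.ha_xa]
  congr 3
  field_simp

theorem ha_xd (z : Fˣ) (t : F) : D.ha z * D.v D.xd t * (D.ha z)⁻¹ = D.v D.xd ((z : F) ^ 2 * t) := by
  rw [D.xd_apply, shift, D.ta_ha', ← map_inv, D.ha_xb, ← D.xd_apply]
  simp

theorem hb_xd (z : Fˣ) (t : F) : D.hb z * D.v D.xd t * (D.hb z)⁻¹ = D.v D.xd t := by
  rw [D.xd_apply, shift, D.ta_hb',
    show D.ha z * D.hb z * D.v D.xb t * (D.ha z * D.hb z)⁻¹ =
      D.ha z * (D.hb z * D.v D.xb t * (D.hb z)⁻¹) * (D.ha z)⁻¹ by group, D.hb_xb, D.ha_xb]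
  congr 3
  field_simp

/-- the element scaling the four root subgroups by `α, α⁻² z², α⁻¹ z², z²` -/
theorem scale (α z : Fˣ) : ∃ g : G,
    (∀ t, g * D.v D.xa t * g⁻¹ = D.v D.xa ((α : F) * t)) ∧
    (∀ t, g * D.v D.xb t * g⁻¹ = D.v D.xb (((α : F) ^ 2)⁻¹ * (z : F) ^ 2 * t)) ∧
    (∀ t, g * D.v D.xc t * g⁻¹ = D.v D.xc ((α : F)⁻¹ * (z : F) ^ 2 * t)) ∧
    (∀ t, g * D.v D.xd t * g⁻¹ = D.v D.xd ((z : F) ^ 2 * t)) := by
  refine ⟨D.hb α⁻¹ * D.ha z * D.hb (z * z), ?_, ?_, ?_, ?_⟩ <;> intro t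
  all_goals
    rw [show ∀ a b c x : G, a * b * c * x * (a * b * c)⁻¹ = a * (b * (c * x * c⁻¹) * b⁻¹) * a⁻¹ from
      fun a b c x => by group]
  · rw [D.hb_xa, D.ha_xa, D.hb_xa]; congr 1; simp; field_simp
  · rw [D.hb_xb, D.ha_xb, D.hb_xb]; congr 1; simp; field_simp
  · rw [D.hb_xc, D.ha_xc, D.hb_xc]; congr 1; simp; ring
  · rw [D.hb_xd, D.ha_xd, D.hb_xd]

theorem ta_sq : D.ta * D.ta = D.ha (-1) := by
  show D.A (wOne F) * D.A (wOne F) = D.A (diagT (-1))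
  rw [← map_mul, wOne_sq]
  congr 1
  refine ext2 ?_ ?_ ?_ ?_ <;> simp

theorem tb_sq : D.tb * D.tb = D.hb (-1) := by
  show D.B (wOne F) * D.B (wOne F) = D.B (diagT (-1))
  rw [← map_mul, wOne_sq]
  congr 1
  refine ext2 ?_ ?_ ?_ ?_ <;> simp

theorem ta_xc (t : F) : D.ta * D.v D.xc t * D.ta⁻¹ = D.v D.xc (-t) := by
  rcases eq_or_ne t 0 with rfl | ht
  · simp [D.v_zero]
  have e1 := D.hb_xc (Units.mk0 t ht) 1
  have e2 := D.hb_xc (Units.mk0 t ht) (-1)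
  simp only [Units.val_mk0, mul_one, mul_neg] at e1 e2
  rw [← e1, show D.ta * (D.hb (Units.mk0 t ht) * D.v D.xc 1 * (D.hb (Units.mk0 t ht))⁻¹) * D.ta⁻¹ =
    (D.ta * D.hb (Units.mk0 t ht) * D.ta⁻¹) * (D.ta * D.v D.xc 1 * D.ta⁻¹) *
      (D.ta * D.hb (Units.mk0 t ht) * D.ta⁻¹)⁻¹ by group, D.ta_hb,
    show D.ta * D.v D.xc 1 * D.ta⁻¹ = D.v D.xc (-1) from D.fixc]
  rw [show ∀ a b x : G, a * b * x * (a * b)⁻¹ = a * (b * x * b⁻¹) * a⁻¹ from fun a b x => by group, e2, D.ha_xc]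

theorem tb_xd (t : F) : D.tb * D.v D.xd t * D.tb⁻¹ = D.v D.xd t := by
  refine spread_sq (fun t => D.tb * D.v D.xd t * D.tb⁻¹ = D.v D.xd t) (by simp [D.v_zero])
    (fun a b ea eb => ?_) 1 one_ne_zero (fun w => ?_) t
  · rw [D.v_add, show D.tb * (D.v D.xd a * D.v D.xd b) * D.tb⁻¹ =
      (D.tb * D.v D.xd a * D.tb⁻¹) * (D.tb * D.v D.xd b * D.tb⁻¹) by group, ea, eb]
  · have e := D.ha_xd w 1
    rw [mul_one] at e
    rw [one_mul, ← e, show D.tb * (D.ha w * D.v D.xd 1 * (D.ha w)⁻¹) * D.tb⁻¹ =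
      (D.tb * D.ha w * D.tb⁻¹) * (D.tb * D.v D.xd 1 * D.tb⁻¹) * (D.tb * D.ha w * D.tb⁻¹)⁻¹ by group, D.tb_ha,
      show D.tb * D.v D.xd 1 * D.tb⁻¹ = D.v D.xd 1 from D.fixd,
      show ∀ a b x : G, a * (b * b) * x * (a * (b * b))⁻¹ = a * (b * (b * x * b⁻¹) * b⁻¹) * a⁻¹ from
        fun a b x => by group, D.hb_xd, D.hb_xd]

theorem tb_xc (t : F) : D.tb * D.v D.xc t * D.tb⁻¹ = D.v D.xa (-t) := by
  rw [D.xc_apply, show D.tb * (D.tb * D.v D.xa t * D.tb⁻¹) * D.tb⁻¹ =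
    (D.tb * D.tb) * D.v D.xa t * (D.tb * D.tb)⁻¹ by group, D.tb_sq, D.hb_xa]
  simp

theorem ta_xd (t : F) : D.ta * D.v D.xd t * D.ta⁻¹ = D.v D.xb t := by
  rw [D.xd_apply, show D.ta * (D.ta * D.v D.xb t * D.ta⁻¹) * D.ta⁻¹ =
    (D.ta * D.ta) * D.v D.xb t * (D.ta * D.ta)⁻¹ by group, D.ta_sq, D.ha_xb]
  simp

theorem comm_ad (t u : F) : Commute (D.v D.xa t) (D.v D.xd u) := by
  rcases eq_or_ne t 0 with rfl | ht
  · rw [D.v_zero]; exact Commute.one_left _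
  refine spread_sq (fun u => Commute (D.v D.xa t) (D.v D.xd u)) (by rw [D.v_zero]; exact Commute.one_right _)
    (fun a b ea eb => by rw [D.v_add]; exact ea.mul_right eb) 1 one_ne_zero (fun w => ?_) u
  obtain ⟨g, g1, -, -, g4⟩ := D.scale (Units.mk0 t ht) w
  have := (show Commute (D.v D.xa 1) (D.v D.xd 1) from D.cad).map (MulAut.conj g).toMonoidHom
  simp only [MulEquiv.coe_toMonoidHom, MulAut.conj_apply, g1, g4, Units.val_mk0, mul_one] at this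
  simpa using this

theorem comm_bd (t u : F) : Commute (D.v D.xb t) (D.v D.xd u) := by
  have h1 : ∀ z : Fˣ, ∀ u, Commute (D.v D.xb ((z : F) ^ 2)) (D.v D.xd u) := fun z u => by
    refine spread_sq (fun u => Commute (D.v D.xb ((z : F) ^ 2)) (D.v D.xd u))
      (by rw [D.v_zero]; exact Commute.one_right _)
      (fun a b ea eb => by rw [D.v_add]; exact ea.mul_right eb) 1 one_ne_zero (fun w => ?_) u
    have := (show Commute (D.v D.xb 1) (D.v D.xd 1) from D.cbd).map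
      (MulAut.conj (D.ha w * D.hb (w * z))).toMonoidHom
    simp only [MulEquiv.coe_toMonoidHom, MulAut.conj_apply] at this
    rw [show ∀ a b x : G, a * b * x * (a * b)⁻¹ = a * (b * x * b⁻¹) * a⁻¹ from fun a b x => by group,
      show ∀ a b x : G, a * b * x * (a * b)⁻¹ = a * (b * x * b⁻¹) * a⁻¹ from fun a b x => by group,
      D.hb_xb, D.hb_xd, D.ha_xb, D.ha_xd] at this
    simpa [mul_pow] using this
  refine spread_sq (fun t => Commute (D.v D.xb t) (D.v D.xd u)) (by rw [D.v_zero]; exact Commute.one_left _)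
    (fun a b ea eb => by rw [D.v_add]; exact ea.mul_left eb) 1 one_ne_zero (fun z => ?_) t
  rw [one_mul]
  exact h1 z u

theorem comm_cd (t u : F) : Commute (D.v D.xc t) (D.v D.xd u) := by
  have := (D.comm_ad t u).map (MulAut.conj D.tb).toMonoidHom
  simp only [MulEquiv.coe_toMonoidHom, MulAut.conj_apply, D.tb_xd, ← D.xc_apply] at this
  exact this

theorem comm_bc (t u : F) : Commute (D.v D.xb t) (D.v D.xc u) := by
  have := (D.comm_cd (-u) t).map (MulAut.conj D.ta).toMonoidHom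
  simp only [MulEquiv.coe_toMonoidHom, MulAut.conj_apply, D.ta_xd, D.ta_xc, neg_neg] at this
  exact this.symm

theorem conj_ac (t u : F) : D.v D.xa t * D.v D.xc u * (D.v D.xa t)⁻¹ = D.v D.xd (-2 * (t * u)) * D.v D.xc u := by
  rcases eq_or_ne t 0 with rfl | ht
  · simp [D.v_zero]
  refine spread_sq (fun u => D.v D.xa t * D.v D.xc u * (D.v D.xa t)⁻¹ = D.v D.xd (-2 * (t * u)) * D.v D.xc u)
    (by simp [D.v_zero]) (fun a b ea eb => ?_) t⁻¹ (inv_ne_zero ht) (fun w => ?_) u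
  · rw [D.v_add, show D.v D.xa t * (D.v D.xc a * D.v D.xc b) * (D.v D.xa t)⁻¹ =
      (D.v D.xa t * D.v D.xc a * (D.v D.xa t)⁻¹) * (D.v D.xa t * D.v D.xc b * (D.v D.xa t)⁻¹) by group, ea, eb,
      mul_assoc, ← mul_assoc (D.v D.xc a), (D.comm_cd a _).eq, mul_assoc, ← mul_assoc, ← D.v_add, ← mul_add,
      ← mul_add]
  · obtain ⟨g, g1, -, g3, g4⟩ := D.scale (Units.mk0 t ht) w
    have e : D.v D.xa 1 * D.v D.xc 1 * (D.v D.xa 1)⁻¹ = D.v D.xd (-2) * D.v D.xc 1 :=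
      mul_inv_eq_iff_eq_mul.mp D.cac
    have := congrArg (MulAut.conj g) e
    simp only [map_mul, map_inv, MulAut.conj_apply, g1, g3, g4, Units.val_mk0, mul_one] at this
    rw [this]
    congr 2
    field_simp

theorem conj_ab (t u : F) : D.v D.xa t * D.v D.xb u * (D.v D.xa t)⁻¹ =
    D.v D.xc (-(t * u)) * D.v D.xd (t * t * u) * D.v D.xb u := by
  rcases eq_or_ne t 0 with rfl | ht
  · simp [D.v_zero]
  refine spread_sq (fun u => D.v D.xa t * D.v D.xb u * (D.v D.xa t)⁻¹ =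
    D.v D.xc (-(t * u)) * D.v D.xd (t * t * u) * D.v D.xb u)
    (by simp [D.v_zero]) (fun a b ea eb => ?_) (t ^ 2)⁻¹ (inv_ne_zero (pow_ne_zero 2 ht)) (fun w => ?_) u
  · rw [D.v_add, show D.v D.xa t * (D.v D.xb a * D.v D.xb b) * (D.v D.xa t)⁻¹ =
      (D.v D.xa t * D.v D.xb a * (D.v D.xa t)⁻¹) * (D.v D.xa t * D.v D.xb b * (D.v D.xa t)⁻¹) by group, ea, eb]
    have c1 := (D.comm_bc a (-(t * b))).mul_right (D.comm_bd a (t * t * b))
    have c2 := (D.comm_cd (-(t * b)) (t * t * a)).symm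
    calc _ = D.v D.xc (-(t * a)) * D.v D.xd (t * t * a) *
          ((D.v D.xb a) * (D.v D.xc (-(t * b)) * D.v D.xd (t * t * b))) * D.v D.xb b := by group
      _ = D.v D.xc (-(t * a)) * (D.v D.xd (t * t * a) * D.v D.xc (-(t * b))) * D.v D.xd (t * t * b) *
          (D.v D.xb a * D.v D.xb b) := by rw [c1.eq]; group
      _ = (D.v D.xc (-(t * a)) * D.v D.xc (-(t * b))) * (D.v D.xd (t * t * a) * D.v D.xd (t * t * b)) *
          (D.v D.xb a * D.v D.xb b) := by rw [c2.eq]; group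
      _ = _ := by rw [← D.v_add, ← D.v_add, ← neg_add, ← mul_add, ← mul_add]
  · obtain ⟨g, g1, g2, g3, g4⟩ := D.scale (Units.mk0 t ht) w
    have e : D.v D.xa 1 * D.v D.xb 1 * (D.v D.xa 1)⁻¹ = D.v D.xc (-1) * D.v D.xd 1 * D.v D.xb 1 :=
      mul_inv_eq_iff_eq_mul.mp D.cab
    have := congrArg (MulAut.conj g) e
    simp only [map_mul, map_inv, MulAut.conj_apply, g1, g2, g3, g4, Units.val_mk0, mul_one] at this
    rw [this]
    congr 2
    · field_simp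
    · congr 1; field_simp

/-- the roots `b, a+b, 2a+b` -/
def V : Subgroup G := D.xb.range ⊔ D.xc.range ⊔ D.xd.range
/-- the roots `a, a+b, 2a+b` -/
def N : Subgroup G := D.xa.range ⊔ D.xc.range ⊔ D.xd.range
/-- the unipotent subgroup -/
def U : Subgroup G := D.xa.range ⊔ D.V
/-- the torus -/
def T : Subgroup G := (D.ha.noncommCoprod D.hb D.hcomm).range
/-- the Borel subgroup -/
def Bo : Subgroup G := D.T ⊔ D.U

theorem V_cases {g : G} {R : Subgroup G} (hb : ∀ t, g * D.v D.xb t * g⁻¹ ∈ R) (hc : ∀ t, g * D.v D.xc t * g⁻¹ ∈ R)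
    (hd : ∀ t, g * D.v D.xd t * g⁻¹ ∈ R) : ∀ x ∈ D.V, g * x * g⁻¹ ∈ R :=
  conj_sup (conj_sup (by rintro _ ⟨t, rfl⟩; exact hb t.toAdd) (by rintro _ ⟨t, rfl⟩; exact hc t.toAdd))
    (by rintro _ ⟨t, rfl⟩; exact hd t.toAdd)

theorem N_cases {g : G} {R : Subgroup G} (ha : ∀ t, g * D.v D.xa t * g⁻¹ ∈ R) (hc : ∀ t, g * D.v D.xc t * g⁻¹ ∈ R)
    (hd : ∀ t, g * D.v D.xd t * g⁻¹ ∈ R) : ∀ x ∈ D.N, g * x * g⁻¹ ∈ R :=
  conj_sup (conj_sup (by rintro _ ⟨t, rfl⟩; exact ha t.toAdd) (by rintro _ ⟨t, rfl⟩; exact hc t.toAdd))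
    (by rintro _ ⟨t, rfl⟩; exact hd t.toAdd)

theorem b_le : D.xb.range ≤ D.V := le_sup_of_le_left le_sup_left
theorem c_le : D.xc.range ≤ D.V := le_sup_of_le_left le_sup_right
theorem d_le : D.xd.range ≤ D.V := le_sup_right
theorem a_le' : D.xa.range ≤ D.N := le_sup_of_le_left le_sup_left
theorem c_le' : D.xc.range ≤ D.N := le_sup_of_le_left le_sup_right
theorem d_le' : D.xd.range ≤ D.N := le_sup_right
theorem V_le : D.V ≤ D.U := le_sup_right
theorem a_le : D.xa.range ≤ D.U := le_sup_left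
theorem N_le : D.N ≤ D.U := sup_le (sup_le D.a_le (D.c_le.trans D.V_le)) (D.d_le.trans D.V_le)

theorem a_norm : D.xa.range ≤ Subgroup.normalizer (D.V : Set G) := le_normalizer_of (by
  rintro _ ⟨t, rfl⟩
  refine D.V_cases (fun u => ?_) (fun u => ?_) (fun u => ?_)
  · rw [show D.xa t = D.v D.xa t.toAdd from rfl, D.conj_ab]
    exact mul_mem (mul_mem (D.c_le (D.v_mem _ _)) (D.d_le (D.v_mem _ _))) (D.b_le (D.v_mem _ _))
  · rw [show D.xa t = D.v D.xa t.toAdd from rfl, D.conj_ac]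
    exact mul_mem (D.d_le (D.v_mem _ _)) (D.c_le (D.v_mem _ _))
  · rw [show D.xa t = D.v D.xa t.toAdd from rfl, (D.comm_ad _ u).eq, mul_inv_cancel_right]
    exact D.d_le (D.v_mem _ _))

theorem b_norm : D.xb.range ≤ Subgroup.normalizer (D.N : Set G) := le_normalizer_of (by
  rintro _ ⟨u, rfl⟩
  refine D.N_cases (fun t => ?_) (fun t => ?_) (fun t => ?_)
  · rw [show D.xb u = D.v D.xb u.toAdd from rfl]
    have e := D.conj_ab t u.toAdd
    have : D.v D.xb u.toAdd * D.v D.xa t * (D.v D.xb u.toAdd)⁻¹ =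
        (D.v D.xc (-(t * u.toAdd)) * D.v D.xd (t * t * u.toAdd))⁻¹ * D.v D.xa t := by
      rw [eq_inv_mul_iff_mul_eq, ← mul_assoc, ← mul_assoc, ← e]; group
    rw [this]
    exact mul_mem (inv_mem (mul_mem (D.c_le' (D.v_mem _ _)) (D.d_le' (D.v_mem _ _)))) (D.a_le' (D.v_mem _ _))
  · rw [show D.xb u = D.v D.xb u.toAdd from rfl, (D.comm_bc _ t).eq, mul_inv_cancel_right]
    exact D.c_le' (D.v_mem _ _)
  · rw [show D.xb u = D.v D.xb u.toAdd from rfl, (D.comm_bd _ t).eq, mul_inv_cancel_right]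
    exact D.d_le' (D.v_mem _ _))

theorem U_eq_N : D.U = D.xb.range ⊔ D.N :=
  le_antisymm (sup_le (D.a_le'.trans le_sup_right) (sup_le (sup_le le_sup_left (D.c_le'.trans le_sup_right))
    (D.d_le'.trans le_sup_right))) (sup_le (D.b_le.trans D.V_le) D.N_le)

theorem V_finite : (D.V : Set G).Finite ∧ Set.ncard (D.V : Set G) ≤ Nat.card F ^ 3 := by
  have hc : ∀ {x y : Multiplicative F →* G}, (∀ t u, Commute (D.v x t) (D.v y u)) →
      x.range ≤ Subgroup.normalizer (y.range : Set G) := fun {x y} h => le_normalizer_of (by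
    rintro _ ⟨t, rfl⟩ _ ⟨u, rfl⟩
    show D.v x t.toAdd * D.v y u.toAdd * (D.v x t.toAdd)⁻¹ ∈ _
    rw [(h t.toAdd u.toAdd).eq, mul_inv_cancel_right]
    exact ⟨u, rfl⟩)
  have hcard : Nat.card (Multiplicative F) = Nat.card F := rfl
  have h1 := finite_sup (hc D.comm_bc) (finite_range D.xb).1 (finite_range D.xc).1
    (finite_range D.xb).2 (finite_range D.xc).2
  have hn : D.xb.range ⊔ D.xc.range ≤ Subgroup.normalizer (D.xd.range : Set G) :=
    sup_le (hc D.comm_bd) (hc D.comm_cd)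
  have h2 := finite_sup hn h1.1 (finite_range D.xd).1 h1.2 (finite_range D.xd).2
  rw [hcard] at h2
  exact ⟨h2.1, h2.2.trans (by rw [pow_succ, pow_two])⟩

theorem T_norm : D.T ≤ Subgroup.normalizer (D.U : Set G) := le_normalizer_of (by
  rintro _ ⟨⟨z, w⟩, rfl⟩ x hx
  have hsp : ∀ y : G, D.ha.noncommCoprod D.hb D.hcomm (z, w) * y * (D.ha.noncommCoprod D.hb D.hcomm (z, w))⁻¹ =
      D.ha z * (D.hb w * y * (D.hb w)⁻¹) * (D.ha z)⁻¹ := fun y => by
    rw [MonoidHom.noncommCoprod_apply]; group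
  refine conj_sup ?_ (D.V_cases (fun t => ?_) (fun t => ?_) (fun t => ?_)) x hx
  · rintro _ ⟨t, rfl⟩
    rw [show D.xa t = D.v D.xa t.toAdd from rfl, hsp, D.hb_xa, D.ha_xa]
    exact D.a_le (D.v_mem _ _)
  · rw [hsp, D.hb_xb, D.ha_xb]; exact D.V_le (D.b_le (D.v_mem _ _))
  · rw [hsp, D.hb_xc, D.ha_xc]; exact D.V_le (D.c_le (D.v_mem _ _))
  · rw [hsp, D.hb_xd, D.ha_xd]; exact D.V_le (D.d_le (D.v_mem _ _)))

theorem Bo_finite : (D.Bo : Set G).Finite ∧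
    Set.ncard (D.Bo : Set G) ≤ Nat.card Fˣ * Nat.card Fˣ * Nat.card F ^ 4 := by
  have hT := finite_range (D.ha.noncommCoprod D.hb D.hcomm)
  rw [Nat.card_prod] at hT
  have hU := finite_sup D.a_norm (finite_range D.xa).1 D.V_finite.1 (finite_range D.xa).2 D.V_finite.2
  have h := finite_sup D.T_norm hT.1 hU.1 hT.2 hU.2
  exact ⟨h.1, h.2.trans (le_of_eq (by rw [show Nat.card (Multiplicative F) = Nat.card F from rfl]; ring))⟩

/-- root homomorphism of a letter -/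
def xs : Bool → (Multiplicative F →* G) := fun s => if s then D.xb else D.xa
/-- Weyl element of a letter -/
def ts : Bool → G := fun s => if s then D.tb else D.ta
/-- the part of the Borel subgroup normalised by the Weyl element -/
def K : Bool → Subgroup G := fun s => if s then D.T ⊔ D.N else D.T ⊔ D.V

theorem K_le (s : Bool) : D.K s ≤ D.Bo := by
  cases s
  · exact sup_le_sup_left D.V_le _
  · exact sup_le_sup_left D.N_le _

theorem decomp (s : Bool) {b : G} (hb : b ∈ D.Bo) : ∃ k ∈ D.K s, ∃ t, b = k * D.v (D.xs s) t := by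
  obtain ⟨c, hc, u, hu, rfl⟩ : ∃ c ∈ D.T, ∃ u ∈ D.U, c * u = b := by
    have : b ∈ ((D.T ⊔ D.U : Subgroup G) : Set G) := hb
    rw [Subgroup.coe_mul_of_left_le_normalizer_right _ _ D.T_norm] at this
    exact Set.mem_mul.mp this
  cases s
  · have : u ∈ ((D.V ⊔ D.xa.range : Subgroup G) : Set G) := by rw [sup_comm]; exact hu
    rw [Subgroup.coe_mul_of_right_le_normalizer_left _ _ D.a_norm] at this
    obtain ⟨n, hn, _, ⟨t, rfl⟩, rfl⟩ := Set.mem_mul.mp this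
    exact ⟨c * n, mul_mem (Subgroup.mem_sup_left hc) (Subgroup.mem_sup_right hn), t.toAdd, (mul_assoc _ _ _).symm⟩
  · have : u ∈ ((D.N ⊔ D.xb.range : Subgroup G) : Set G) := by rw [sup_comm, ← D.U_eq_N]; exact hu
    rw [Subgroup.coe_mul_of_right_le_normalizer_left _ _ D.b_norm] at this
    obtain ⟨n, hn, _, ⟨t, rfl⟩, rfl⟩ := Set.mem_mul.mp this
    exact ⟨c * n, mul_mem (Subgroup.mem_sup_left hc) (Subgroup.mem_sup_right hn), t.toAdd, (mul_assoc _ _ _).symm⟩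

theorem T_mem (z w : Fˣ) : D.ha z * D.hb w ∈ D.T := ⟨(z, w), by simp⟩

theorem conj_K (s : Bool) {k : G} (hk : k ∈ D.K s) : D.ts s * k * (D.ts s)⁻¹ ∈ D.Bo := by
  have hTmem : D.T ≤ D.Bo := le_sup_left
  have hUmem : D.U ≤ D.Bo := le_sup_right
  have hsplit : ∀ t z w, t * (D.ha.noncommCoprod D.hb D.hcomm (z, w)) * t⁻¹ =
      (t * D.ha z * t⁻¹) * (t * D.hb w * t⁻¹) := fun t z w => by
    rw [MonoidHom.noncommCoprod_apply]; group
  cases s
  · refine conj_sup ?_ (D.V_cases (fun t => ?_) (fun t => ?_) (fun t => ?_)) k hk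
    · rintro _ ⟨⟨z, w⟩, rfl⟩
      show D.ta * _ * D.ta⁻¹ ∈ D.Bo
      rw [hsplit, D.ta_ha, D.ta_hb, ← map_inv, ← mul_assoc, ← map_mul]
      exact hTmem (D.T_mem _ _)
    · show D.ta * D.v D.xb t * D.ta⁻¹ ∈ D.Bo
      rw [← D.xd_apply]; exact hUmem (D.V_le (D.d_le (D.v_mem _ _)))
    · show D.ta * D.v D.xc t * D.ta⁻¹ ∈ D.Bo
      rw [D.ta_xc]; exact hUmem (D.V_le (D.c_le (D.v_mem _ _)))
    · show D.ta * D.v D.xd t * D.ta⁻¹ ∈ D.Bo
      rw [D.ta_xd]; exact hUmem (D.V_le (D.b_le (D.v_mem _ _)))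
  · refine conj_sup ?_ (D.N_cases (fun t => ?_) (fun t => ?_) (fun t => ?_)) k hk
    · rintro _ ⟨⟨z, w⟩, rfl⟩
      show D.tb * _ * D.tb⁻¹ ∈ D.Bo
      rw [hsplit, D.tb_ha, D.tb_hb, mul_assoc, ← map_inv, ← map_mul, ← map_mul]
      exact hTmem (D.T_mem _ _)
    · show D.tb * D.v D.xa t * D.tb⁻¹ ∈ D.Bo
      rw [← D.xc_apply]; exact hUmem (D.V_le (D.c_le (D.v_mem _ _)))
    · show D.tb * D.v D.xc t * D.tb⁻¹ ∈ D.Bo
      rw [D.tb_xc]; exact hUmem (D.a_le (D.v_mem _ _))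
    · show D.tb * D.v D.xd t * D.tb⁻¹ ∈ D.Bo
      rw [D.tb_xd]; exact hUmem (D.V_le (D.d_le (D.v_mem _ _)))

theorem xs_mem (s : Bool) (t : F) : D.v (D.xs s) t ∈ D.Bo := by
  cases s
  · exact Subgroup.mem_sup_right (D.a_le (D.v_mem _ _))
  · exact Subgroup.mem_sup_right (D.V_le (D.b_le (D.v_mem _ _)))

theorem sq_mem (s : Bool) : D.ts s * D.ts s ∈ D.Bo := by
  cases s
  · show D.ta * D.ta ∈ D.Bo
    rw [D.ta_sq, ← mul_one (D.ha (-1)), ← map_one D.hb]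
    exact Subgroup.mem_sup_left (D.T_mem _ _)
  · show D.tb * D.tb ∈ D.Bo
    rw [D.tb_sq, ← one_mul (D.hb (-1)), ← map_one D.ha]
    exact Subgroup.mem_sup_left (D.T_mem _ _)

theorem bruhat (s : Bool) {t : F} (ht : t ≠ 0) :
    ∃ b ∈ D.Bo, ∃ u, D.ts s * D.v (D.xs s) t * D.ts s = b * D.ts s * D.v (D.xs s) u := by
  set h : Fˣ := -(Units.mk0 t ht)⁻¹ with hh
  have e : wOne F * upperU t * wOne F = upperU (h : F) * diagT h * wOne F * upperU (h : F) := by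
    refine ext2 ?_ ?_ ?_ ?_ <;> simp [hh, wOne, mul00, mul01, mul10, mul11] <;> (try field_simp) <;> ring
  cases s
  · refine ⟨D.v D.xa h * D.ha h, mul_mem (D.xs_mem false _)
      (Subgroup.mem_sup_left ⟨(h, 1), by simp⟩), h, ?_⟩
    show D.A (wOne F) * D.A (upperU t) * D.A (wOne F) =
      D.A (upperU (h : F)) * D.A (diagT h) * D.A (wOne F) * D.A (upperU (h : F))
    rw [← map_mul, ← map_mul, e, map_mul, map_mul, map_mul]
  · refine ⟨D.v D.xb h * D.hb h, mul_mem (D.xs_mem true _)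
      (Subgroup.mem_sup_left ⟨(1, h), by simp⟩), h, ?_⟩
    show D.B (wOne F) * D.B (upperU t) * D.B (wOne F) =
      D.B (upperU (h : F)) * D.B (diagT h) * D.B (wOne F) * D.B (upperU (h : F))
    rw [← map_mul, ← map_mul, e, map_mul, map_mul, map_mul]

/-- the cell of a word (last letter first) -/
def S : List Bool → Set G
  | [] => D.Bo
  | s :: L => (fun q : G × F => q.1 * D.ts s * D.v (D.xs s) q.2) '' (S L ×ˢ Set.univ)

theorem S_mul : ∀ L {g b : G}, g ∈ D.S L → b ∈ D.Bo → g * b ∈ D.S L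
  | [], g, b, hg, hb => D.Bo.mul_mem hg hb
  | s :: L, _, b, ⟨⟨g, t⟩, ⟨hg, _⟩, rfl⟩, hb => by
    obtain ⟨k, hk, u, hu⟩ := D.decomp s (mul_mem (D.xs_mem s t) hb)
    refine ⟨(g * (D.ts s * k * (D.ts s)⁻¹), u), ⟨S_mul L hg (D.conj_K s hk), trivial⟩, ?_⟩
    show g * (D.ts s * k * (D.ts s)⁻¹) * D.ts s * D.v (D.xs s) u = g * D.ts s * D.v (D.xs s) t * b
    rw [mul_assoc (g * D.ts s), hu]
    group

theorem S_t (s : Bool) {L : List Bool} {g : G} (hg : g ∈ D.S L) : g * D.ts s ∈ D.S (s :: L) :=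
  ⟨(g, 0), ⟨hg, trivial⟩, by simp [D.v_zero]⟩

theorem S_same (s : Bool) {L : List Bool} {g : G} (hg : g ∈ D.S (s :: L)) :
    g * D.ts s ∈ D.S (s :: L) ∨ g * D.ts s ∈ D.S L := by
  obtain ⟨⟨g, t⟩, ⟨hg, -⟩, rfl⟩ := hg
  rcases eq_or_ne t 0 with rfl | ht
  · right
    show g * D.ts s * D.v (D.xs s) 0 * D.ts s ∈ _
    rw [D.v_zero, mul_one, mul_assoc]
    exact D.S_mul L hg (D.sq_mem s)
  · left
    obtain ⟨b, hb, u, e⟩ := D.bruhat s ht
    refine ⟨(g * b, u), ⟨D.S_mul L hg hb, trivial⟩, ?_⟩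
    show g * b * D.ts s * D.v (D.xs s) u = g * D.ts s * D.v (D.xs s) t * D.ts s
    calc g * b * D.ts s * D.v (D.xs s) u = g * (b * D.ts s * D.v (D.xs s) u) := by group
      _ = _ := by rw [← e]; group

/-- the longest element -/
def w0 : G := D.ta * D.tb * D.ta * D.tb

theorem inv_conj {t : G} {R R' : Subgroup G} (hsq : ∀ x ∈ R, (t * t)⁻¹ * x * (t * t) ∈ R)
    (h : ∀ x ∈ R, t * x * t⁻¹ ∈ R') {x : G} (hx : x ∈ R) : t⁻¹ * x * t ∈ R' := by
  have := h _ (hsq x hx)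
  rwa [show t * ((t * t)⁻¹ * x * (t * t)) * t⁻¹ = t⁻¹ * x * t by group] at this

theorem down :
    (∀ x ∈ D.xa.range, D.tb⁻¹ * x * D.tb ∈ D.xc.range) ∧ (∀ x ∈ D.xc.range, D.tb⁻¹ * x * D.tb ∈ D.xa.range) ∧
    (∀ x ∈ D.xd.range, D.tb⁻¹ * x * D.tb ∈ D.xd.range) ∧ (∀ x ∈ D.xb.range, D.ta⁻¹ * x * D.ta ∈ D.xd.range) ∧
    (∀ x ∈ D.xd.range, D.ta⁻¹ * x * D.ta ∈ D.xb.range) ∧ (∀ x ∈ D.xc.range, D.ta⁻¹ * x * D.ta ∈ D.xc.range) := by
  have sa : ∀ z, (D.ha z)⁻¹ = D.ha z⁻¹ := fun z => (map_inv _ z).symm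
  have sb : ∀ z, (D.hb z)⁻¹ = D.hb z⁻¹ := fun z => (map_inv _ z).symm
  have qb : ∀ x : Multiplicative F →* G, (∀ z t, ∃ u, D.hb z * D.v x t * (D.hb z)⁻¹ = D.v x u) →
      ∀ y ∈ x.range, (D.tb * D.tb)⁻¹ * y * (D.tb * D.tb) ∈ x.range := by
    rintro x hx _ ⟨t, rfl⟩
    obtain ⟨u, hu⟩ := hx (-1)⁻¹ t.toAdd
    rw [← sb, inv_inv, ← D.tb_sq] at hu
    exact ⟨Multiplicative.ofAdd u, hu.symm⟩
  have qa : ∀ x : Multiplicative F →* G, (∀ z t, ∃ u, D.ha z * D.v x t * (D.ha z)⁻¹ = D.v x u) →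
      ∀ y ∈ x.range, (D.ta * D.ta)⁻¹ * y * (D.ta * D.ta) ∈ x.range := by
    rintro x hx _ ⟨t, rfl⟩
    obtain ⟨u, hu⟩ := hx (-1)⁻¹ t.toAdd
    rw [← sa, inv_inv, ← D.ta_sq] at hu
    exact ⟨Multiplicative.ofAdd u, hu.symm⟩
  refine ⟨fun x hx => inv_conj (qb _ fun z t => ⟨_, D.hb_xa z t⟩) ?_ hx,
    fun x hx => inv_conj (qb _ fun z t => ⟨_, D.hb_xc z t⟩) ?_ hx,
    fun x hx => inv_conj (qb _ fun z t => ⟨_, D.hb_xd z t⟩) ?_ hx,
    fun x hx => inv_conj (qa _ fun z t => ⟨_, D.ha_xb z t⟩) ?_ hx,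
    fun x hx => inv_conj (qa _ fun z t => ⟨_, D.ha_xd z t⟩) ?_ hx,
    fun x hx => inv_conj (qa _ fun z t => ⟨_, D.ha_xc z t⟩) ?_ hx⟩ <;> rintro _ ⟨t, rfl⟩
  · exact ⟨t, rfl⟩
  · exact ⟨_, (D.tb_xc t.toAdd).symm⟩
  · exact ⟨_, (D.tb_xd t.toAdd).symm⟩
  · exact ⟨t, rfl⟩
  · exact ⟨_, (D.ta_xd t.toAdd).symm⟩
  · exact ⟨_, (D.ta_xc t.toAdd).symm⟩

theorem long_swap {g : G} (hg : g ∈ D.S [true, false, true, false]) : g ∈ D.S [false, true, false, true] := by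
  obtain ⟨⟨_, v4⟩, ⟨⟨⟨_, v3⟩, ⟨⟨⟨_, v2⟩, ⟨⟨⟨β, v1⟩, ⟨hβ, -⟩, rfl⟩, -⟩, rfl⟩, -⟩, rfl⟩, -⟩, rfl⟩ := hg
  obtain ⟨d1, d2, d3, d4, d5, d6⟩ := D.down
  have m1 : (D.tb * D.ta * D.tb)⁻¹ * D.v D.xa v1 * (D.tb * D.ta * D.tb) ∈ D.U := by
    rw [show (D.tb * D.ta * D.tb)⁻¹ * D.v D.xa v1 * (D.tb * D.ta * D.tb) =
      D.tb⁻¹ * (D.ta⁻¹ * (D.tb⁻¹ * D.v D.xa v1 * D.tb) * D.ta) * D.tb by group]
    exact D.a_le (d2 _ (d6 _ (d1 _ (D.v_mem _ _))))
  have m2 : (D.ta * D.tb)⁻¹ * D.v D.xb v2 * (D.ta * D.tb) ∈ D.U := by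
    rw [show (D.ta * D.tb)⁻¹ * D.v D.xb v2 * (D.ta * D.tb) = D.tb⁻¹ * (D.ta⁻¹ * D.v D.xb v2 * D.ta) * D.tb by group]
    exact D.V_le (D.d_le (d3 _ (d4 _ (D.v_mem _ _))))
  have m3 : D.tb⁻¹ * D.v D.xa v3 * D.tb ∈ D.U := D.V_le (D.c_le (d1 _ (D.v_mem _ _)))
  have hw : D.w0 = D.tb * D.ta * D.tb * D.ta := D.braid
  have e : β * D.ta * D.v D.xa v1 * D.tb * D.v D.xb v2 * D.ta * D.v D.xa v3 * D.tb * D.v D.xb v4 =
      β * D.tb * D.ta * D.tb * D.ta * ((D.tb * D.ta * D.tb)⁻¹ * D.v D.xa v1 * (D.tb * D.ta * D.tb) *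
        ((D.ta * D.tb)⁻¹ * D.v D.xb v2 * (D.ta * D.tb)) * (D.tb⁻¹ * D.v D.xa v3 * D.tb) * D.v D.xb v4) := by
    rw [show β * D.tb * D.ta * D.tb * D.ta = β * (D.tb * D.ta * D.tb * D.ta) by group, ← hw, w0]
    group
  show β * D.ta * D.v D.xa v1 * D.tb * D.v D.xb v2 * D.ta * D.v D.xa v3 * D.tb * D.v D.xb v4 ∈ _
  rw [e]
  exact D.S_mul _ (D.S_t false (D.S_t true (D.S_t false (D.S_t true hβ))))
    (Subgroup.mem_sup_right (mul_mem (mul_mem (mul_mem m1 m2) m3) (D.V_le (D.b_le (D.v_mem _ _)))))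

theorem long_swap' {g : G} (hg : g ∈ D.S [false, true, false, true]) : g ∈ D.S [true, false, true, false] := by
  obtain ⟨⟨_, v4⟩, ⟨⟨⟨_, v3⟩, ⟨⟨⟨_, v2⟩, ⟨⟨⟨β, v1⟩, ⟨hβ, -⟩, rfl⟩, -⟩, rfl⟩, -⟩, rfl⟩, -⟩, rfl⟩ := hg
  obtain ⟨d1, d2, d3, d4, d5, d6⟩ := D.down
  have m1 : (D.ta * D.tb * D.ta)⁻¹ * D.v D.xb v1 * (D.ta * D.tb * D.ta) ∈ D.U := by
    rw [show (D.ta * D.tb * D.ta)⁻¹ * D.v D.xb v1 * (D.ta * D.tb * D.ta) =
      D.ta⁻¹ * (D.tb⁻¹ * (D.ta⁻¹ * D.v D.xb v1 * D.ta) * D.tb) * D.ta by group]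
    exact D.V_le (D.b_le (d5 _ (d3 _ (d4 _ (D.v_mem _ _)))))
  have m2 : (D.tb * D.ta)⁻¹ * D.v D.xa v2 * (D.tb * D.ta) ∈ D.U := by
    rw [show (D.tb * D.ta)⁻¹ * D.v D.xa v2 * (D.tb * D.ta) = D.ta⁻¹ * (D.tb⁻¹ * D.v D.xa v2 * D.tb) * D.ta by group]
    exact D.V_le (D.c_le (d6 _ (d1 _ (D.v_mem _ _))))
  have m3 : D.ta⁻¹ * D.v D.xb v3 * D.ta ∈ D.U := D.V_le (D.d_le (d4 _ (D.v_mem _ _)))
  have hw : D.w0 = D.tb * D.ta * D.tb * D.ta := D.braid
  have e : β * D.tb * D.v D.xb v1 * D.ta * D.v D.xa v2 * D.tb * D.v D.xb v3 * D.ta * D.v D.xa v4 =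
      β * D.ta * D.tb * D.ta * D.tb * ((D.ta * D.tb * D.ta)⁻¹ * D.v D.xb v1 * (D.ta * D.tb * D.ta) *
        ((D.tb * D.ta)⁻¹ * D.v D.xa v2 * (D.tb * D.ta)) * (D.ta⁻¹ * D.v D.xb v3 * D.ta) * D.v D.xa v4) := by
    rw [show β * D.ta * D.tb * D.ta * D.tb = β * D.w0 by rw [w0]; group, hw]
    group
  show β * D.tb * D.v D.xb v1 * D.ta * D.v D.xa v2 * D.tb * D.v D.xb v3 * D.ta * D.v D.xa v4 ∈ _
  rw [e]
  exact D.S_mul _ (D.S_t true (D.S_t false (D.S_t true (D.S_t false hβ))))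
    (Subgroup.mem_sup_right (mul_mem (mul_mem (mul_mem m1 m2) m3) (D.a_le (D.v_mem _ _))))

/-- the eight cells -/
def cells : Finset (List Bool) :=
  {[], [false], [true], [false, true], [true, false], [false, true, false], [true, false, true],
    [false, true, false, true]}

/-- their union -/
def all : Set G := ⋃ L ∈ cells, D.S L

theorem mem_all {L : List Bool} (hL : L ∈ cells) {g : G} (hg : g ∈ D.S L) : g ∈ D.all :=
  Set.mem_biUnion (show L ∈ (cells : Set (List Bool)) from hL) hg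

theorem all_step (s : Bool) {g : G} (hg : g ∈ D.all) : g * D.ts s ∈ D.all := by
  obtain ⟨L, hL, hg⟩ := Set.mem_iUnion₂.mp hg
  have same : ∀ {L : List Bool}, s :: L ∈ cells → L ∈ cells → g ∈ D.S (s :: L) → g * D.ts s ∈ D.all :=
    fun h1 h2 hg => (D.S_same s hg).elim (D.mem_all h1) (D.mem_all h2)
  simp only [cells, Finset.mem_insert, Finset.mem_singleton] at hL
  rcases hL with rfl | rfl | rfl | rfl | rfl | rfl | rfl | rfl <;> cases s
  all_goals first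
    | exact same (by decide) (by decide) hg
    | exact D.mem_all (by decide) (D.S_t _ hg)
    | exact D.mem_all (by decide) (D.long_swap (D.S_t _ hg))
    | exact (D.S_same true (D.long_swap' hg)).elim (fun h => D.mem_all (by decide) (D.long_swap h))
        (D.mem_all (by decide))

theorem all_mul {g b : G} (hg : g ∈ D.all) (hb : b ∈ D.Bo) : g * b ∈ D.all := by
  obtain ⟨L, hL, hg⟩ := Set.mem_iUnion₂.mp hg
  exact D.mem_all hL (D.S_mul L hg hb)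

theorem S_finite : ∀ L, (D.S L).Finite ∧
    (D.S L).ncard ≤ Nat.card Fˣ * Nat.card Fˣ * Nat.card F ^ 4 * Nat.card F ^ L.length
  | [] => by
    simp only [S, List.length_nil, pow_zero, mul_one]
    exact D.Bo_finite
  | s :: L => by
    obtain ⟨h1, h2⟩ := S_finite L
    have hf := h1.prod (Set.finite_univ (α := F))
    refine ⟨hf.image _, (Set.ncard_image_le hf).trans ?_⟩
    rw [Set.ncard_prod, Set.ncard_univ, List.length_cons, pow_succ (Nat.card F) L.length, ← mul_assoc]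
    exact Nat.mul_le_mul_right _ h2

include D in
/-- The group has at most `|Sp₄(F)|` elements. -/
theorem card_le : Finite G ∧ Nat.card G ≤ Nat.card Fˣ * Nat.card Fˣ * Nat.card F ^ 4 *
    ((1 + Nat.card F) * (1 + Nat.card F + Nat.card F ^ 2 + Nat.card F ^ 3)) := by
  classical
  let X : Set G := {g | ∀ y ∈ D.all, y * g ∈ D.all}
  have hfin : D.all.Finite := cells.finite_toSet.biUnion fun L _ => (D.S_finite L).1
  let M : Subgroup G :=
    { carrier := X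
      one_mem' := fun y hy => by simpa using hy
      mul_mem' := fun {g g'} hg hg' y hy => by rw [← mul_assoc]; exact hg' _ (hg y hy)
      inv_mem' := fun {g} hg y hy => by
        have hb : Set.SurjOn (fun y => y * g) D.all D.all := by
          have := (hfin.injOn_iff_bijOn_of_mapsTo (f := fun y => y * g) hg).1 (mul_left_injective g).injOn
          exact this.surjOn
        obtain ⟨y', hy', rfl⟩ := hb hy
        simpa using hy' }
  have hM : M = ⊤ := by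
    rw [eq_top_iff, ← D.gen, sup_le_iff]
    have key : ∀ (f : Matrix.SpecialLinearGroup (Fin 2) F →* G) (s : Bool), f (wOne F) = D.ts s →
        (∀ t, f (upperU t) = D.v (D.xs s) t) → f.range ≤ M := by
      intro f s hw hu
      rw [MonoidHom.range_eq_map, ← CfsgLib.SLn.closure_transvections, MonoidHom.map_closure, Subgroup.closure_le]
      have hU : ∀ t, upperU t ∈ M.comap f := fun t => by
        rw [Subgroup.mem_comap, hu]; exact fun y hy => D.all_mul hy (D.xs_mem s t)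
      have hW : wOne F ∈ M.comap f := by
        rw [Subgroup.mem_comap, hw]; exact fun y hy => D.all_step s hy
      rintro _ ⟨_, ⟨i, j, hij, c, rfl⟩, rfl⟩
      suffices h : Matrix.SpecialLinearGroup.transvection hij c ∈ M.comap f from h
      fin_cases i <;> fin_cases j
      · exact absurd rfl hij
      · rw [show Matrix.SpecialLinearGroup.transvection hij c = upperU c from ext2 (by simp
          [Matrix.SpecialLinearGroup.transvection_coe, Matrix.single]) (by simp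
          [Matrix.SpecialLinearGroup.transvection_coe, Matrix.single]) (by simp
          [Matrix.SpecialLinearGroup.transvection_coe, Matrix.single]) (by simp
          [Matrix.SpecialLinearGroup.transvection_coe, Matrix.single])]
        exact hU c
      · rw [show Matrix.SpecialLinearGroup.transvection hij c = wOne F * upperU (-c) * (wOne F)⁻¹ from by
          rw [CfsgLib.SL2Pres.Short.w_one_conj, neg_neg]
          refine ext2 ?_ ?_ ?_ ?_ <;> simp [Matrix.SpecialLinearGroup.transvection_coe, Matrix.single]]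
        exact mul_mem (mul_mem hW (hU _)) (inv_mem hW)
      · exact absurd rfl hij
    exact ⟨key D.A false rfl fun _ => rfl, key D.B true rfl fun _ => rfl⟩
  have huniv : D.all = Set.univ := Set.eq_univ_of_forall fun g => by
    have hg : g ∈ M := hM ▸ Subgroup.mem_top g
    simpa using hg 1 (D.mem_all (L := []) (by decide) (one_mem D.Bo))
  haveI : Finite G := Set.finite_univ_iff.mp (huniv ▸ hfin)
  refine ⟨this, ?_⟩
  rw [← Set.ncard_univ, ← huniv]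
  refine (cells.set_ncard_biUnion_le _).trans ?_
  refine (Finset.sum_le_sum fun L _ => (D.S_finite L).2).trans (le_of_eq ?_)
  rw [← Finset.mul_sum]
  congr 1
  simp [cells, Finset.sum_insert]
  ring

end Data

end CfsgLib.SpFourPres
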